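import Cfsg.Agent.Lib.Helper95.LBP7
import Cfsg.Agent.Lib.Helper44.GraphTwoSp
import Cfsg.Agent.Lib.Helper44.GraphStd

set_option autoImplicit false

/-!
Piece R (`rigS`) of the S2687 farm: rigidity of the symplectic group over a subfield.
-/

namespace Cfsg.Agent.Lib.Helper95.LBP

open Matrix Cfsg.Agent.Lib.Helper43.PA Cfsg.Agent.Lib.Helper44 Cfsg.Agent.Lib.Helper80.LBP

variable {n : ℕ}

lemma dot_alt {F : Type*} [Field F] {A : GL (Fin n) F} (halt : ∀ x, x ⬝ᵥ A.1 *ᵥ x = 0)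
    (u : Fin n → F) : ((A⁻¹ : GL (Fin n) F).1 *ᵥ u) ⬝ᵥ u = 0 := by
  have e1 : A.1 *ᵥ ((A⁻¹ : GL (Fin n) F).1 *ᵥ u) = u := by
    rw [mulVec_mulVec, ← Units.val_mul, mul_inv_cancel]
    simp
  have := halt ((A⁻¹ : GL (Fin n) F).1 *ᵥ u)
  rwa [e1] at this

lemma tv_alt_fix {F : Type*} [Field F] {A : GL (Fin n) F} (hA : A.1ᵀ = -A.1)
    (halt : ∀ x, x ⬝ᵥ A.1 *ᵥ x = 0) (u : Fin n → F) :
    (conjSL A * invT : MulAut (SpecialLinearGroup (Fin n) F)) (tv u ((A⁻¹ : GL (Fin n) F).1 *ᵥ u))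
      = tv u ((A⁻¹ : GL (Fin n) F).1 *ᵥ u) := by
  have h0 := dot_alt halt u
  have h0' : (-u) ⬝ᵥ ((A⁻¹ : GL (Fin n) F).1 *ᵥ u) = 0 := by
    rw [neg_dotProduct, dotProduct_comm, h0, neg_zero]
  rw [MulAut.mul_apply, invT_tv h0, conjSL_tv A h0']
  have e1 : A.1 *ᵥ ((A⁻¹ : GL (Fin n) F).1 *ᵥ u) = u := by
    rw [mulVec_mulVec, ← Units.val_mul, mul_inv_cancel]
    simp
  have e2 : (-u) ᵥ* (A⁻¹ : GL (Fin n) F).1 = (A⁻¹ : GL (Fin n) F).1 *ᵥ u := by
    rw [← mulVec_transpose, inv_skew hA, neg_mulVec, mulVec_neg, neg_neg]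
  rw [e1, e2]

lemma map_one_add_vecMulVec {F F0 : Type*} [Field F] [Field F0] (j : F0 →+* F)
    (u φ : Fin n → F0) :
    (1 + vecMulVec u φ).map j = 1 + vecMulVec (fun k => j (u k)) (fun k => j (φ k)) := by
  ext a b
  simp only [Matrix.map_apply, Matrix.add_apply, vecMulVec_apply, map_add, map_mul]
  congr 1
  by_cases hab : a = b
  · subst hab; simp
  · simp [Matrix.one_apply_ne hab]

lemma vmv_mulVec {F : Type*} [Field F] (u φ w : Fin n → F) :
    vecMulVec u φ *ᵥ w = (φ ⬝ᵥ w) • u := by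
  ext a
  simp only [mulVec, dotProduct, vecMulVec_apply, Pi.smul_apply, smul_eq_mul, Finset.sum_mul]
  exact Finset.sum_congr rfl (fun b _ => by ring)

lemma map_dot_zero {F F0 : Type*} [Field F] [Field F0] (j : F0 →+* F) {u φ : Fin n → F0}
    (h : φ ⬝ᵥ u = 0) : (fun k => j (φ k)) ⬝ᵥ (fun k => j (u k)) = 0 := by
  have := congrArg j h
  rw [map_zero] at this
  rw [← this]
  simp only [dotProduct, map_sum, map_mul]

lemma map_ne_zero_vec {F F0 : Type*} [Field F] [Field F0] (j : F0 →+* F) {u : Fin n → F0}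
    (h : u ≠ 0) : (fun k => j (u k)) ≠ 0 := by
  obtain ⟨k, hk⟩ := Function.ne_iff.1 h
  intro h0
  have := congrFun h0 k
  simp only [Pi.zero_apply] at this hk
  exact hk ((map_eq_zero j).1 this)

/-- a semilinear map fixing all lines defined over a subfield -/
lemma scalar_of_lines_sub {F F0 : Type*} [Field F] [Field F0] (i : F0 →+* F) (hn : 2 ≤ n)
    (h : GL (Fin n) F) (τ : F ≃+* F)
    (H : ∀ u : Fin n → F0, u ≠ 0 →
      ∃ c : F, h.1 *ᵥ (fun k => τ (i (u k))) = c • (fun k => i (u k))) :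
    (∀ x : F0, τ (i x) = i x) ∧ ∃ c : F, h.1 = c • (1 : Matrix (Fin n) (Fin n) F) := by
  classical
  have hs1 : ∀ a : Fin n, (fun k => i ((Pi.single a 1 : Fin n → F0) k)) = Pi.single a 1 := by
    intro a
    ext k
    by_cases hk : k = a
    · subst hk; simp
    · simp [Pi.single_eq_of_ne hk]
  have hs2 : ∀ a : Fin n, (fun k => τ (i ((Pi.single a 1 : Fin n → F0) k))) = Pi.single a 1 := by
    intro a
    ext k
    by_cases hk : k = a
    · subst hk; simp
    · simp [Pi.single_eq_of_ne hk]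
  have hne0 : ∀ a : Fin n, (Pi.single a 1 : Fin n → F0) ≠ 0 := by
    intro a h0
    have := congrFun h0 a
    simp at this
  have hne : ∀ a : Fin n, (Pi.single a 1 : Fin n → F) ≠ 0 := by
    intro a h0
    have := congrFun h0 a
    simp at this
  choose lam hlam using fun a : Fin n => H (Pi.single a 1) (hne0 a)
  simp only [hs1, hs2] at hlam
  have comb : ∀ a b : Fin n, a ≠ b → ∀ x : F0,
      ∃ c, lam a = c ∧ lam b * τ (i x) = c * i x := by
    intro a b hab x
    have hy0 : (Pi.single a 1 + x • Pi.single b 1 : Fin n → F0) ≠ 0 := by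
      intro h0
      have := congrFun h0 a
      simp [Pi.single_eq_of_ne hab] at this
    obtain ⟨c, hc⟩ := H _ hy0
    have e1 : (fun k => i ((Pi.single a 1 + x • Pi.single b 1 : Fin n → F0) k))
        = Pi.single a 1 + i x • Pi.single b 1 := by
      ext k
      simp only [Pi.add_apply, Pi.smul_apply, smul_eq_mul, map_add, map_mul]
      have e1 : i ((Pi.single a 1 : Fin n → F0) k) = (Pi.single a 1 : Fin n → F) k :=
        congrFun (hs1 a) k
      have e2 : i ((Pi.single b 1 : Fin n → F0) k) = (Pi.single b 1 : Fin n → F) k :=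
        congrFun (hs1 b) k
      rw [e1, e2]
    have e2 : (fun k => τ (i ((Pi.single a 1 + x • Pi.single b 1 : Fin n → F0) k)))
        = Pi.single a 1 + τ (i x) • Pi.single b 1 := by
      ext k
      simp only [Pi.add_apply, Pi.smul_apply, smul_eq_mul, map_add, map_mul]
      have e1 : τ (i ((Pi.single a 1 : Fin n → F0) k)) = (Pi.single a 1 : Fin n → F) k :=
        congrFun (hs2 a) k
      have e2 : τ (i ((Pi.single b 1 : Fin n → F0) k)) = (Pi.single b 1 : Fin n → F) k :=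
        congrFun (hs2 b) k
      rw [e1, e2]
    rw [e1, e2, mulVec_add, mulVec_smul, hlam, hlam] at hc
    refine ⟨c, ?_, ?_⟩
    · have := congrFun hc a
      simpa [Pi.single_eq_of_ne hab] using this
    · have := congrFun hc b
      simp [Pi.single_eq_of_ne hab.symm] at this
      linear_combination this
  have key : ∀ a b : Fin n, a ≠ b → ∀ x : F0, lam a = lam b ∧ lam b * τ (i x) = lam b * i x := by
    intro a b hab x
    obtain ⟨c, h1, h2⟩ := comb a b hab 1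
    obtain ⟨d, h3, h4⟩ := comb a b hab x
    rw [map_one, map_one, mul_one, mul_one] at h2
    refine ⟨h1.trans h2.symm, ?_⟩
    rw [h4, ← h3, h1, ← h2]
  obtain ⟨i0, i1, h01⟩ : ∃ i0 i1 : Fin n, i0 ≠ i1 :=
    ⟨⟨0, by omega⟩, ⟨1, by omega⟩, by simp [Fin.ext_iff]⟩
  have hl0 : ∀ a, lam a ≠ 0 := by
    intro a h0
    have := hlam a
    rw [h0, zero_smul] at this
    exact mulVec_ne_zero h (hne a) this
  have hall : ∀ a, lam a = lam i1 := by
    intro a
    by_cases hi : a = i1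
    · rw [hi]
    · exact (key a i1 hi 0).1
  refine ⟨fun x => mul_left_cancel₀ (hl0 i1) (key i0 i1 h01 x).2, lam i1, ?_⟩
  ext k l
  have := congrFun (hlam l) k
  rw [mulVec_single_one] at this
  simp only [Matrix.col_apply, Pi.smul_apply, smul_eq_mul] at this
  rw [this, hall l]
  by_cases hkl : k = l
  · subst hkl; simp
  · simp [Matrix.one_apply_ne hkl, Pi.single_eq_of_ne hkl]

/-- general alternating version of `rigS` -/
theorem rigAlt {F : Type*} [Field F] {F0 : Type*} [Field F0] (i : F0 →+* F) (hn : 2 ≤ n)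
    {A : GL (Fin n) F0} (hA : A.1ᵀ = -A.1) (halt : ∀ x, x ⬝ᵥ A.1 *ᵥ x = 0)
    (h : GL (Fin n) F) (τ : F ≃+* F)
    (H : ∀ s : SpecialLinearGroup (Fin n) F0,
      (conjSL A * invT : MulAut (SpecialLinearGroup (Fin n) F0)) s = s →
      ∃ z : F, h.1 * (s.1.map i).map τ = z • ((s.1.map i) * h.1)) :
    (∀ x : F0, τ (i x) = i x) ∧ ∃ c : F, h.1 = c • (1 : Matrix (Fin n) (Fin n) F) := by
  apply scalar_of_lines_sub i hn h τ
  intro u hu
  set φ : Fin n → F0 := (A⁻¹ : GL (Fin n) F0).1 *ᵥ u with hφ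
  have h0 : φ ⬝ᵥ u = 0 := dot_alt halt u
  have hφ0 : φ ≠ 0 := mulVec_ne_zero A⁻¹ hu
  obtain ⟨z, hz⟩ := H _ (tv_alt_fix hA halt u)
  rw [← hφ, tv_coe h0, map_one_add_vecMulVec i] at hz
  set u1 : Fin n → F := fun k => i (u k) with hu1
  set φ1 : Fin n → F := fun k => i (φ k) with hφ1
  have hm : (1 + vecMulVec u1 φ1).map ⇑τ
      = 1 + vecMulVec (fun k => τ (u1 k)) (fun k => τ (φ1 k)) :=
    map_one_add_vecMulVec (τ : F →+* F) u1 φ1
  rw [hm] at hz
  set u2 : Fin n → F := fun k => τ (u1 k) with hu2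
  set φ2 : Fin n → F := fun k => τ (φ1 k) with hφ2
  have d1 : φ1 ⬝ᵥ u1 = 0 := map_dot_zero i h0
  have d2 : φ2 ⬝ᵥ u2 = 0 := map_dot_zero (τ : F →+* F) d1
  have n1 : u1 ≠ 0 := map_ne_zero_vec i hu
  have nφ1 : φ1 ≠ 0 := map_ne_zero_vec i hφ0
  have hinv : h.1 * (h⁻¹ : GL (Fin n) F).1 = 1 := by
    rw [← Units.val_mul, mul_inv_cancel]; rfl
  have hinv' : (h⁻¹ : GL (Fin n) F).1 * h.1 = 1 := by
    rw [← Units.val_mul, inv_mul_cancel]; rfl
  set w : Fin n → F := (h⁻¹ : GL (Fin n) F).1 *ᵥ u1 with hw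
  have hhw : h.1 *ᵥ w = u1 := by
    rw [hw, mulVec_mulVec, hinv, one_mulVec]
  -- apply the equation to `w`
  have E : (h.1 * (1 + vecMulVec u2 φ2)) *ᵥ w = (z • ((1 + vecMulVec u1 φ1) * h.1)) *ᵥ w :=
    congrArg (fun M => M *ᵥ w) hz
  rw [← mulVec_mulVec, add_mulVec, one_mulVec, vmv_mulVec, mulVec_add, hhw, mulVec_smul,
    smul_mulVec, ← mulVec_mulVec, hhw, add_mulVec, one_mulVec, vmv_mulVec, d1, zero_smul,
    add_zero] at E
  have hz1 : z = 1 := by
    by_cases hw0 : φ2 ⬝ᵥ w = 0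
    · rw [hw0, zero_smul, add_zero] at E
      obtain ⟨k, hk⟩ := Function.ne_iff.1 n1
      have := congrFun E k
      simp only [Pi.smul_apply, smul_eq_mul, Pi.zero_apply] at this hk
      have h3 : (z - 1) * u1 k = 0 := by linear_combination -this
      rcases mul_eq_zero.1 h3 with h4 | h4
      · linear_combination h4
      · exact absurd h4 hk
    · -- apply `h⁻¹` and pair with `φ2`
      have E2 : φ2 ⬝ᵥ ((h⁻¹ : GL (Fin n) F).1 *ᵥ (u1 + (φ2 ⬝ᵥ w) • h.1 *ᵥ u2))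
          = φ2 ⬝ᵥ ((h⁻¹ : GL (Fin n) F).1 *ᵥ (z • u1)) :=
        congrArg (fun v => φ2 ⬝ᵥ ((h⁻¹ : GL (Fin n) F).1 *ᵥ v)) E
      rw [mulVec_add, mulVec_smul, mulVec_mulVec, hinv', one_mulVec, mulVec_smul, ← hw,
        dotProduct_add, dotProduct_smul, dotProduct_smul, d2, smul_zero, add_zero,
        smul_eq_mul] at E2
      have h3 : (z - 1) * (φ2 ⬝ᵥ w) = 0 := by linear_combination -E2
      rcases mul_eq_zero.1 h3 with h4 | h4
      · linear_combination h4
      · exact absurd h4 hw0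
  rw [hz1, one_smul, Matrix.mul_add, Matrix.add_mul, Matrix.mul_one, Matrix.one_mul,
    mul_vecMulVec, vecMulVec_mul] at hz
  exact prop_of_vecMulVec_eq (add_left_cancel hz) n1 (vecMul_ne_zero h nφ1)

/-- [R] rigidity of the symplectic group over a subfield -/
theorem rigS {F : Type*} [Field F] {F0 : Type*} [Field F0] (i : F0 →+* F) {m : ℕ} (hm : 1 ≤ m)
    (e : Fin m ⊕ Fin m ≃ Fin n) (h : GL (Fin n) F) (τ : F ≃+* F)
    (H : ∀ s : SpecialLinearGroup (Fin n) F0,
      (conjSL (reGL e (JGL m F0)) * invT : MulAut (SpecialLinearGroup (Fin n) F0)) s = s →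
      ∃ z : F, h.1 * (s.1.map i).map τ = z • ((s.1.map i) * h.1)) :
    (∀ x : F0, τ (i x) = i x) ∧ ∃ c : F, h.1 = c • (1 : Matrix (Fin n) (Fin n) F) := by
  have hn : m + m = n := by
    have := Fintype.card_congr e
    simpa using this
  refine rigAlt i (by omega) (reGL_J_transpose e) ?_ h τ H
  intro x
  rw [reGL_coe, reindex_bilin, JGL_coe, J_alt]

end Cfsg.Agent.Lib.Helper95.LBP
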