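import Cfsg.Agent.Lib.Helper95.LBP0

set_option autoImplicit false
set_option linter.style.haveILetI false

/-!
Piece P7 (`hc_S`) of the S2686 farm.
-/

namespace Cfsg.Agent.Lib.Helper95.LBP

open Matrix Cfsg.Agent.Lib.Helper43.PA Cfsg.Agent.Lib.Helper44 Cfsg.Agent.Lib.Helper80.LBP

variable {n : ℕ} {F : Type*} [Field F]

lemma inv_skew {A : GL (Fin n) F} (hA : A.1ᵀ = -A.1) :
    ((A⁻¹ : GL (Fin n) F).1)ᵀ = -(A⁻¹ : GL (Fin n) F).1 := by
  have h1 : (A⁻¹ : GL (Fin n) F).1 * A.1 = 1 := by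
    rw [← Units.val_mul, inv_mul_cancel]; rfl
  have h2 : A.1 * (A⁻¹ : GL (Fin n) F).1 = 1 := by
    rw [← Units.val_mul, mul_inv_cancel]; rfl
  have h3 : A.1ᵀ * ((A⁻¹ : GL (Fin n) F).1)ᵀ = 1 := by
    rw [← transpose_mul, h1, transpose_one]
  rw [hA, Matrix.neg_mul] at h3
  calc ((A⁻¹ : GL (Fin n) F).1)ᵀ = ((A⁻¹ : GL (Fin n) F).1 * A.1) * ((A⁻¹ : GL (Fin n) F).1)ᵀ := by
        rw [h1, Matrix.one_mul]
    _ = -((A⁻¹ : GL (Fin n) F).1 * (-(A.1 * ((A⁻¹ : GL (Fin n) F).1)ᵀ))) := by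
        rw [Matrix.mul_neg, neg_neg, Matrix.mul_assoc]
    _ = -(A⁻¹ : GL (Fin n) F).1 := by rw [h3, Matrix.mul_one]

lemma dot_skew (h2 : (2 : F) ≠ 0) {A : GL (Fin n) F} (hA : A.1ᵀ = -A.1) (u : Fin n → F) :
    ((A⁻¹ : GL (Fin n) F).1 *ᵥ u) ⬝ᵥ u = 0 := by
  rw [dotProduct_comm]
  exact alt_of_skew h2 (inv_skew hA) u

lemma tv_skew_fix (h2 : (2 : F) ≠ 0) {A : GL (Fin n) F} (hA : A.1ᵀ = -A.1) (u : Fin n → F) :
    (conjSL A * invT : MulAut (SpecialLinearGroup (Fin n) F)) (tv u ((A⁻¹ : GL (Fin n) F).1 *ᵥ u))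
      = tv u ((A⁻¹ : GL (Fin n) F).1 *ᵥ u) := by
  have h0 := dot_skew h2 hA u
  have h0' : (-u) ⬝ᵥ ((A⁻¹ : GL (Fin n) F).1 *ᵥ u) = 0 := by
    rw [neg_dotProduct, dotProduct_comm, h0, neg_zero]
  rw [MulAut.mul_apply, invT_tv h0, conjSL_tv A h0']
  have e1 : A.1 *ᵥ ((A⁻¹ : GL (Fin n) F).1 *ᵥ u) = u := by
    rw [mulVec_mulVec, ← Units.val_mul, mul_inv_cancel]
    simp
  have e2 : (-u) ᵥ* (A⁻¹ : GL (Fin n) F).1 = (A⁻¹ : GL (Fin n) F).1 *ᵥ u := by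
    rw [← mulVec_transpose, inv_skew hA, neg_mulVec, mulVec_neg, neg_neg]
  rw [e1, e2]

/-- the case without graph part -/
lemma hc_S_aux (h2 : (2 : F) ≠ 0) (hn : 2 ≤ n) {A : GL (Fin n) F} (hA : A.1ᵀ = -A.1)
    (τ : F ≃+* F) (h : GL (Fin n) F)
    (ha : ∀ k ∈ LL (conjSL A * invT),
      (cG h * fA τ : MulAut (ProjectiveSpecialLinearGroup (Fin n) F)) k = k) :
    (cG h * fA τ : MulAut (ProjectiveSpecialLinearGroup (Fin n) F)) = 1 := by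
  have H : ∀ u : Fin n → F, u ≠ 0 → ∃ c : F, h.1 *ᵥ (fun i => τ (u i)) = c • u := by
    intro u hu
    have h0 := dot_skew h2 hA u
    have h1 := mul_map_eq (by omega) h τ (isTv_tv u ((A⁻¹ : GL (Fin n) F).1 *ᵥ u))
      (ha _ (mk_mem_LL (tv_skew_fix h2 hA u)))
    have h3 : (tv u ((A⁻¹ : GL (Fin n) F).1 *ᵥ u)).1.map τ
        = (fieldSL τ (tv u ((A⁻¹ : GL (Fin n) F).1 *ᵥ u))).1 := rfl
    have h0' : (fun i => τ (((A⁻¹ : GL (Fin n) F).1 *ᵥ u) i)) ⬝ᵥ (fun i => τ (u i)) = 0 := by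
      have := congrArg τ h0
      rw [map_zero] at this
      rw [← this]
      simp only [dotProduct, map_sum, map_mul]
    rw [h3, fieldSL_tv τ h0, tv_coe h0', tv_coe h0, Matrix.mul_add, Matrix.add_mul, Matrix.mul_one,
      Matrix.one_mul, mul_vecMulVec, vecMulVec_mul] at h1
    exact prop_of_vecMulVec_eq (add_left_cancel h1) hu
      (vecMul_ne_zero h (mulVec_ne_zero A⁻¹ hu))
  obtain ⟨rfl, c, rfl⟩ := scalar_of_lines hn h τ H
  rw [cG_scGL, map_one, one_mul]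

theorem hc_skew [Fintype F] (h2 : (2 : F) ≠ 0) (hn : 3 ≤ n) {A : GL (Fin n) F} (hA : A.1ᵀ = -A.1)
    (a : MulAut (ProjectiveSpecialLinearGroup (Fin n) F))
    (ha : ∀ k ∈ LL (conjSL A * invT), a k = k) : a ^ 2 = 1 := by
  obtain ⟨p', f, hp', hf, hF⟩ := exists_card_pow F
  haveI : Fact p'.Prime := ⟨hp'⟩
  obtain ⟨g, τ, e | e⟩ := aut_factor hF hf (by omega) a
  · rw [e] at ha
    rw [e, hc_S_aux h2 (by omega) hA τ g ha, one_pow]
  · have hgr : pslAut (conjSL A * invT) = gr A := by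
      rw [map_mul]; rfl
    have e1 : a * gr A = cG (g * mapGL τ (invTGL A)) * fA τ := by
      rw [e, gr, mul_assoc, ← mul_assoc gam, gam_mul_cG, mul_assoc (cG (invTGL A)), gam_mul_gam,
        mul_one, mul_assoc, fA_mul_cG, ← mul_assoc, ← map_mul]
    have h1 : ∀ k ∈ LL (conjSL A * invT),
        (cG (g * mapGL τ (invTGL A)) * fA τ :
          MulAut (ProjectiveSpecialLinearGroup (Fin n) F)) k = k := by
      intro k hk
      rw [← e1, MulAut.mul_apply, ← hgr, LL_fix _ k hk, ha k hk]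
    have h3 := hc_S_aux h2 (by omega) hA τ _ h1
    rw [← e1] at h3
    have h4 : a = (gr A)⁻¹ := eq_inv_of_mul_eq_one_left h3
    have h5 : (gr A) ^ 2 = 1 := by
      rw [← orderOf_gr hn (Or.inr hA)]
      exact pow_orderOf_eq_one _
    rw [h4, inv_pow, h5, inv_one]

/-- [P7] -/
theorem hc_S [Fintype F] (h2 : (2 : F) ≠ 0) {m : ℕ} (hm : 2 ≤ m) (e : Fin m ⊕ Fin m ≃ Fin n)
    (a : MulAut (ProjectiveSpecialLinearGroup (Fin n) F))
    (ha : ∀ k ∈ LL (conjSL (reGL e (JGL m F)) * invT), a k = k) : a ^ 2 = 1 := by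
  have hn : m + m = n := by
    have := Fintype.card_congr e
    simpa using this
  exact hc_skew h2 (by omega) (reGL_J_transpose e) a ha

end Cfsg.Agent.Lib.Helper95.LBP
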