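import Cfsg.Agent.Lib.Helper95.LBP0

set_option autoImplicit false
set_option linter.style.haveILetI false

/-!
Piece P9 (`hc_F`) of the S2686 farm.
-/

namespace Cfsg.Agent.Lib.Helper95.LBP

open Matrix Cfsg.Agent.Lib.Helper43.PA Cfsg.Agent.Lib.Helper44 Cfsg.Agent.Lib.Helper80.LBP

variable {n : ℕ} {F : Type*} [Field F]

theorem mem_zpowers_of_fix' [Finite F] (σ τ : F ≃+* F)
    (h : ∀ x, σ x = x → τ x = x) : τ ∈ Subgroup.zpowers σ := by
  have hfin : Finite (F ≃+* F) := Finite.of_injective (fun e => (e : F → F)) DFunLike.coe_injective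
  let τ' : F →ₐ[FixedPoints.subfield (Subgroup.zpowers σ) F] F :=
    { (τ : F →+* F) with
      commutes' := fun r => h r.1 (r.2 ⟨σ, Subgroup.mem_zpowers σ⟩) }
  obtain ⟨g, hg⟩ := (FixedPoints.toAlgHom_bijective (Subgroup.zpowers σ) F).2 τ'
  have : τ = g.1 := by
    ext x
    have := congrArg (fun f : F →ₐ[FixedPoints.subfield (Subgroup.zpowers σ) F] F => f x) hg
    exact this.symm
  rw [this]
  exact g.2

lemma map_one_add_single (τ : F ≃+* F) (i j : Fin n) (c : F) :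
    ((1 : Matrix (Fin n) (Fin n) F) + c • single i j 1).map τ = 1 + τ c • single i j 1 := by
  ext k l
  simp only [Matrix.map_apply, Matrix.add_apply, Matrix.smul_apply, map_add, smul_eq_mul, map_mul]
  congr 1
  · by_cases hkl : k = l
    · subst hkl; simp
    · simp [Matrix.one_apply_ne hkl]
  · congr 1
    by_cases h1 : i = k ∧ j = l
    · obtain ⟨rfl, rfl⟩ := h1; simp
    · simp only [Matrix.single_apply, if_neg h1, map_zero]

lemma tvE_coe {i j : Fin n} (hij : i ≠ j) (c : F) :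
    (tv (c • Pi.single i 1) (Pi.single j 1) : SpecialLinearGroup (Fin n) F).1
      = 1 + c • single i j 1 := by
  rw [tv_coe (by simp [hij.symm]), smul_vecMulVec, ← single_eq_single_vecMulVec_single]

lemma tvE_fix (σ : F ≃+* F) {i j : Fin n} (hij : i ≠ j) {c : F} (hc : σ c = c) :
    fieldSL σ (tv (c • Pi.single i 1) (Pi.single j 1) : SpecialLinearGroup (Fin n) F)
      = tv (c • Pi.single i 1) (Pi.single j 1) := by
  apply SL_ext
  rw [fieldSL_coe, tvE_coe hij, map_one_add_single, hc]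

/-- the case without graph part -/
lemma hc_F_aux [Finite F] (hn : 2 ≤ n) (σ τ : F ≃+* F) (h : GL (Fin n) F)
    (ha : ∀ k ∈ LL (fieldSL σ),
      (cG h * fA τ : MulAut (ProjectiveSpecialLinearGroup (Fin n) F)) k = k) :
    (∃ c : Fˣ, h = scGL c) ∧ τ ∈ Subgroup.zpowers σ := by
  classical
  have E : ∀ i j : Fin n, i ≠ j → ∀ c, σ c = c →
      τ c • (h.1 * single i j 1) = c • (single i j 1 * h.1) := by
    intro i j hij c hc
    have h1 := mul_map_eq (by omega) h τ (isTv_tv (c • Pi.single i 1) (Pi.single j 1))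
      (ha _ (mk_mem_LL (tvE_fix σ hij hc)))
    rw [tvE_coe hij, map_one_add_single, Matrix.mul_add, Matrix.add_mul, Matrix.mul_one,
      Matrix.one_mul, Matrix.mul_smul, Matrix.smul_mul] at h1
    exact add_left_cancel h1
  have hsc : h.1 ∈ Set.range (Matrix.scalar (Fin n)) := by
    apply mem_range_scalar_of_commute_single
    intro i j hij
    have := E i j hij 1 (map_one σ)
    rw [map_one, one_smul, one_smul] at this
    exact this.symm
  obtain ⟨r, hr⟩ := hsc
  have hr0 : r ≠ 0 := by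
    rintro rfl
    have h0 : h.1 = 0 := by rw [← hr]; simp
    exact GL_ne_zero (by omega) h h0
  refine ⟨⟨Units.mk0 r hr0, Units.ext (by rw [scGL_coe, ← hr]; rfl)⟩, ?_⟩
  apply mem_zpowers_of_fix'
  intro c hc
  obtain ⟨i0, i1, h01⟩ : ∃ i0 i1 : Fin n, i0 ≠ i1 :=
    ⟨⟨0, by omega⟩, ⟨1, by omega⟩, by simp [Fin.ext_iff]⟩
  have := E i0 i1 h01 c hc
  rw [← hr] at this
  have h2 := congrFun (congrFun this i0) i1
  simp [Matrix.scalar_apply] at h2
  rcases h2 with h2 | h2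
  · exact h2
  · exact absurd h2 hr0

/-- K3 -/
lemma graph_prop (hn : 1 ≤ n) (h : GL (Fin n) F) (τ : F ≃+* F) {u φ : Fin n → F}
    (h0 : φ ⬝ᵥ u = 0) (hu : u ≠ 0) (hφ : φ ≠ 0)
    (hfix : (cG h * fA τ * gam : MulAut (ProjectiveSpecialLinearGroup (Fin n) F))
      (QuotientGroup.mk (tv u φ)) = QuotientGroup.mk (tv u φ)) :
    ∃ c : F, h.1 *ᵥ (fun i => τ (φ i)) = c • u := by
  have h0' : (-u) ⬝ᵥ φ = 0 := by rw [neg_dotProduct, dotProduct_comm, h0, neg_zero]
  rw [MulAut.mul_apply, gam_mk, invT_tv h0, MulAut.mul_apply, fA_mk, cG_mk, fieldSL_tv τ h0'] at hfix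
  have h1 := IsTv.eq_of_mk_eq hn ((isTv_tv _ _).conjSL h) (isTv_tv u φ) hfix
  have h0'' : (fun i => τ ((-u) i)) ⬝ᵥ (fun i => τ (φ i)) = 0 := by
    have := congrArg τ h0'
    rw [map_zero] at this
    rw [← this]
    simp only [dotProduct, map_sum, map_mul]
  rw [conjSL_tv h h0''] at h1
  have h2 := congrArg Subtype.val h1
  have h3 : ((fun i => τ ((-u) i)) ᵥ* (h⁻¹ : GL (Fin n) F).1) ⬝ᵥ (h.1 *ᵥ fun i => τ (φ i)) = 0 := by
    rw [← dotProduct_mulVec, mulVec_mulVec, ← Units.val_mul, inv_mul_cancel]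
    simpa using h0''
  rw [tv_coe h3, tv_coe h0] at h2
  exact prop_of_vecMulVec_eq (add_left_cancel h2) hu hφ

lemma no_graph (hn : 3 ≤ n) (σ τ : F ≃+* F) (h : GL (Fin n) F)
    (ha : ∀ k ∈ LL (fieldSL σ),
      (cG h * fA τ * gam : MulAut (ProjectiveSpecialLinearGroup (Fin n) F)) k = k) : False := by
  classical
  have hsingle : ∀ i : Fin n, (fun k => τ ((Pi.single i 1 : Fin n → F) k)) = Pi.single i 1 := by
    intro i
    ext k
    by_cases hk : k = i
    · subst hk; simp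
    · simp [Pi.single_eq_of_ne hk]
  have hne : ∀ i : Fin n, (Pi.single i 1 : Fin n → F) ≠ 0 := by
    intro i h0
    have := congrFun h0 i
    simp at this
  have key : ∀ i j : Fin n, i ≠ j → ∃ c : F, h.1 *ᵥ (Pi.single j 1) = c • Pi.single i 1 := by
    intro i j hij
    have h1 := tvE_fix σ hij (map_one σ)
    rw [one_smul] at h1
    have := graph_prop (by omega) h τ (u := Pi.single i 1) (φ := Pi.single j 1)
      (by simp [hij.symm]) (hne i) (hne j) (ha _ (mk_mem_LL h1))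
    rwa [hsingle] at this
  let i0 : Fin n := ⟨0, by omega⟩
  let i1 : Fin n := ⟨1, by omega⟩
  let i2 : Fin n := ⟨2, by omega⟩
  have h01 : i0 ≠ i1 := by simp [i0, i1, Fin.ext_iff]
  have h02 : i0 ≠ i2 := by simp [i0, i2, Fin.ext_iff]
  have h12 : i1 ≠ i2 := by simp [i1, i2, Fin.ext_iff]
  obtain ⟨c, hc⟩ := key i0 i1 h01
  obtain ⟨d, hd⟩ := key i0 i2 h02
  have hz : h.1 *ᵥ (d • Pi.single i1 1 - c • Pi.single i2 1) = 0 := by
    rw [mulVec_sub, mulVec_smul, mulVec_smul, hc, hd, smul_smul, smul_smul, mul_comm, sub_self]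
  by_cases hv : (d • Pi.single i1 1 - c • Pi.single i2 1 : Fin n → F) = 0
  · have e1 := congrFun hv i2
    simp [Pi.single_eq_of_ne h12.symm] at e1
    rw [e1, zero_smul] at hc
    exact mulVec_ne_zero h (hne i1) hc
  · exact mulVec_ne_zero h hv hz

/-- [P9] -/
theorem hc_F [Fintype F] (hn : 2 ≤ n) (σ : F ≃+* F) {p : ℕ} (hp : p.Prime) (hσ : orderOf σ = p)
    (a : MulAut (ProjectiveSpecialLinearGroup (Fin n) F))
    (ha : ∀ k ∈ LL (fieldSL σ), a k = k) : a ^ p = 1 := by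
  obtain ⟨p', f, hp', hf, hF⟩ := exists_card_pow F
  haveI : Fact p'.Prime := ⟨hp'⟩
  have main : ∀ (h : GL (Fin n) F) (τ : F ≃+* F), a = cG h * fA τ → a ^ p = 1 := by
    intro h τ e
    rw [e] at ha
    obtain ⟨⟨c, rfl⟩, hτ⟩ := hc_F_aux hn σ τ h ha
    obtain ⟨k, rfl⟩ := Subgroup.mem_zpowers_iff.1 hτ
    rw [e, cG_scGL, one_mul, ← map_pow, ← zpow_natCast, ← _root_.zpow_mul, mul_comm,
      _root_.zpow_mul, zpow_natCast, ← hσ, pow_orderOf_eq_one, _root_.one_zpow, map_one]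
  rcases Nat.lt_or_ge n 3 with h3 | h3
  · obtain rfl : n = 2 := by omega
    obtain ⟨g, τ, e⟩ := aut_two hF hf a
    exact main g τ e
  · obtain ⟨g, τ, e | e⟩ := aut_factor hF hf hn a
    · exact main g τ e
    · exfalso
      rw [e] at ha
      exact no_graph h3 σ τ g ha

end Cfsg.Agent.Lib.Helper95.LBP
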