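import Cfsg.Agent.Lib.Helper80.LBP.Gen
import Cfsg.Agent.Lib.Helper43.PU.Coset
import Cfsg.Agent.Lib.Helper43.PU.FacThm
import Cfsg.Agent.Lib.Helper43.PU.FieldCentU
import Cfsg.Agent.Lib.Helper43.PU.Rigid
import Cfsg.Agent.Lib.Helper94.HermSL
import Cfsg.Agent.Lib.Helper95.LBP9

set_option autoImplicit false
set_option linter.unusedSectionVars false
set_option linter.style.haveILetI false

/-!
Piece Q1 (`hc_UF`) of the S2687 farm: rigidity of `SU_n(q₀)` inside `PSU_n(q)`.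
-/

namespace Cfsg.Agent.Lib.Helper95.LBP

open Matrix Module Cfsg.Agent.Lib.Helper43.PA Cfsg.Agent.Lib.Helper43.PU Cfsg.Agent.Lib.Helper5
  Cfsg.Agent.Lib.Helper13 Cfsg.Agent.Lib.Helper94 Cfsg.Agent.Lib.Helper94.U
  Cfsg.Agent.Lib.Helper45.SUGen Cfsg.Agent.Lib.Helper80.LBP

section

variable {F : Type*} [Field F] [Fintype F] {q n : ℕ}
variable {F₀ : Type*} [Field F₀] [Fintype F₀] {q₀ : ℕ}

local notation "H" => Cfsg.hermForm n F q
local notation "H₀" => Cfsg.hermForm n F₀ q₀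
local notation "V" => (Fin n → F)
local notation "V₀" => (Fin n → F₀)

lemma herm_emb (ι : F₀ →+* F) (hpow : ∀ y : F₀, y ^ q = y ^ q₀) (u v : V₀) :
    H (⇑ι ∘ u) (⇑ι ∘ v) = ι (H₀ u v) := by
  unfold Cfsg.hermForm
  rw [map_sum]
  apply Finset.sum_congr rfl
  intro i _
  rw [map_mul, ← hpow, map_pow]; rfl

lemma emb_ne_zero (ι : F₀ →+* F) {v : V₀} (hv : v ≠ 0) : (⇑ι ∘ v : V) ≠ 0 := by
  obtain ⟨k, hk⟩ := Function.ne_iff.1 hv
  intro h0
  have := congrFun h0 k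
  simp only [Function.comp_apply, Pi.zero_apply] at this hk
  exact hk ((map_eq_zero ι).1 this)

lemma emb_add (ι : F₀ →+* F) (u v : V₀) : (⇑ι ∘ (u + v) : V) = ⇑ι ∘ u + ⇑ι ∘ v := by
  funext i; simp

lemma emb_smul (ι : F₀ →+* F) (t : F₀) (v : V₀) : (⇑ι ∘ (t • v) : V) = ι t • (⇑ι ∘ v) := by
  funext i; simp

/-- every rational isotropic vector is an eigenvector. -/
lemma semi_eigen_sub (hF : Fintype.card F = q ^ 2) (hF₀ : Fintype.card F₀ = q₀ ^ 2) (hn : 3 ≤ n)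
    (ι : F₀ →+* F) (hpow : ∀ y : F₀, y ^ q = y ^ q₀) (σ : F ≃+* F) (hι : ∀ y, σ (ι y) = ι y)
    {g : ↥(Cfsg.GU n F q)} {τ : F ≃+* F}
    (ha : ∀ k ∈ LLg (fieldSU σ : MulAut ↥(Cfsg.SU n F q)),
      (cGU g * fAU τ : MulAut (Cfsg.PSU n F q)) k = k)
    {v : V₀} (hv0 : v ≠ 0) (hv : H₀ v v = 0) :
    ∃ l : F, semi g τ (⇑ι ∘ v) = l • (⇑ι ∘ v : V) := by
  obtain ⟨c, hc0, hc⟩ := exists_skew_q hF₀
  have hv' : H (⇑ι ∘ v) (⇑ι ∘ v) = 0 := by rw [herm_emb ι hpow, hv, map_zero]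
  have hc' : ι c + (ι c) ^ q = 0 := by rw [← map_pow, hpow, ← map_add, hc, map_zero]
  have hfix : fieldSU σ (tSU hF (⇑ι ∘ v) (ι c) hv' hc') = tSU hF (⇑ι ∘ v) (ι c) hv' hc' := by
    rw [fieldSU_tSU]
    have e1 : (⇑σ ∘ (⇑ι ∘ v) : V) = ⇑ι ∘ v := funext fun i => hι _
    have e2 : σ (ι c) = ι c := hι c
    simp only [e1, e2]
  have h1 := cGU_fAU_tSU hF g τ (⇑ι ∘ v) (ι c) hv' hc'
  rw [ha _ (mk_mem_LLg hfix)] at h1
  have h2 := tSU_eq_of_mk_eq hF hn hv' _ hc' _ h1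
  obtain ⟨a, ha0, ha'⟩ := par_of_tSU_eq hF (emb_ne_zero ι hv0)
    ((map_ne_zero ι).2 hc0) hv' _ hc' _ h2
  refine ⟨a⁻¹, ?_⟩
  conv_rhs => rw [ha']
  rw [smul_smul, inv_mul_cancel₀ ha0, one_smul]

/-- the computation in `semi_pair`. -/
lemma semi_pair_gen (hF : Fintype.card F = q ^ 2) {g : ↥(Cfsg.GU n F q)} {τ : F ≃+* F}
    {e f w : V} {t : F} (he : H e e = 0) (hf : H f f = 0) (hef : H e f = 1) (hfe : H f e = 1)
    (hwe : H w e = 0) (hwf : H w f = 0) {le lf l : F} (hle : semi g τ e = le • e)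
    (hlf : semi g τ f = lf • f) (hl : semi g τ (e + w + t • f) = l • (e + w + t • f)) :
    τ t * lf = le * t := by
  have hlf0 : lf ≠ 0 := by
    rintro rfl
    have := semi_herm g τ e f
    rw [hlf, zero_smul, hermForm_zero_right hF, hef, map_one] at this
    exact zero_ne_one this
  have hle0 : le ≠ 0 := by
    rintro rfl
    have := semi_herm g τ e f
    rw [hle, zero_smul, hermForm_zero_left, hef, map_one] at this
    exact zero_ne_one this
  have hWf : H (semi g τ w) f = 0 := by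
    have := semi_herm g τ w f
    rw [hlf, hermForm_smul_right, hwf, map_zero] at this
    exact (mul_eq_zero.mp this).resolve_left (pow_ne_zero _ hlf0)
  have hWe : H (semi g τ w) e = 0 := by
    have := semi_herm g τ w e
    rw [hle, hermForm_smul_right, hwe, map_zero] at this
    exact (mul_eq_zero.mp this).resolve_left (pow_ne_zero _ hle0)
  rw [semi_add, semi_add, semi_smul, hle, hlf] at hl
  have h1 := congrArg (fun y => H y f) hl
  have h2 := congrArg (fun y => H y e) hl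
  simp only [hermForm_add_left, hermForm_smul_left, hf, hef, hWf, he, hfe, hWe, hwf, hwe] at h1 h2
  have h3 : le = l := by linear_combination h1
  rw [h3]
  linear_combination h2

lemma semi_pair_sub (hF : Fintype.card F = q ^ 2) (hF₀ : Fintype.card F₀ = q₀ ^ 2) (hn : 3 ≤ n)
    (ι : F₀ →+* F) (hpow : ∀ y : F₀, y ^ q = y ^ q₀) (σ : F ≃+* F) (hι : ∀ y, σ (ι y) = ι y)
    {g : ↥(Cfsg.GU n F q)} {τ : F ≃+* F}
    (ha : ∀ k ∈ LLg (fieldSU σ : MulAut ↥(Cfsg.SU n F q)),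
      (cGU g * fAU τ : MulAut (Cfsg.PSU n F q)) k = k)
    {e f : V₀} (he : H₀ e e = 0) (hf : H₀ f f = 0) (hef : H₀ e f = 1) (hfe : H₀ f e = 1)
    {le lf : F} (hle : semi g τ (⇑ι ∘ e) = le • (⇑ι ∘ e : V))
    (hlf : semi g τ (⇑ι ∘ f) = lf • (⇑ι ∘ f : V)) (t : F₀) :
    τ (ι t) * lf = le * ι t := by
  obtain ⟨w, hwe, hwf, hww⟩ := exists_norm_perp_pair hF₀ hn he hef (-(t + t ^ q₀))
    (by rw [neg_pow_q hF₀, add_pow_q hF₀, pow_q_pow_q hF₀]; ring)
  have hew : H₀ e w = 0 := hermForm_eq_zero_comm hF₀ hwe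
  have hfw : H₀ f w = 0 := hermForm_eq_zero_comm hF₀ hwf
  have hz : H₀ (e + w + t • f) (e + w + t • f) = 0 := by
    simp only [hermForm_add_left, hermForm_add_right hF₀, hermForm_smul_left, hermForm_smul_right,
      he, hf, hef, hfe, hwe, hwf, hew, hfw, hww]
    ring
  have hzf : H₀ (e + w + t • f) f = 1 := by
    simp only [hermForm_add_left, hermForm_smul_left, hf, hef, hwf]; ring
  have hz0 : e + w + t • f ≠ 0 := by
    intro h0
    rw [h0, hermForm_zero_left] at hzf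
    exact zero_ne_one hzf
  obtain ⟨l, hl⟩ := semi_eigen_sub hF hF₀ hn ι hpow σ hι ha hz0 hz
  rw [emb_add, emb_add, emb_smul] at hl
  exact semi_pair_gen hF (by rw [herm_emb ι hpow, he, map_zero])
    (by rw [herm_emb ι hpow, hf, map_zero]) (by rw [herm_emb ι hpow, hef, map_one])
    (by rw [herm_emb ι hpow, hfe, map_one]) (by rw [herm_emb ι hpow, hwe, map_zero])
    (by rw [herm_emb ι hpow, hwf, map_zero]) hle hlf hl

theorem rigid_sub (hF : Fintype.card F = q ^ 2) (hF₀ : Fintype.card F₀ = q₀ ^ 2) (hn : 3 ≤ n)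
    (ι : F₀ →+* F) (hpow : ∀ y : F₀, y ^ q = y ^ q₀) (σ : F ≃+* F) (hι : ∀ y, σ (ι y) = ι y)
    {g : ↥(Cfsg.GU n F q)} {τ : F ≃+* F}
    (ha : ∀ k ∈ LLg (fieldSU σ : MulAut ↥(Cfsg.SU n F q)),
      (cGU g * fAU τ : MulAut (Cfsg.PSU n F q)) k = k) :
    (∀ t : F₀, τ (ι t) = ι t) ∧ ∃ a : F, ∀ x : V, g.1.1 *ᵥ x = a • x := by
  obtain ⟨e, f, he0, he, hf, hef, hfe⟩ := exists_hyp_pair (n := n) hF₀ hn
  have hf0 : f ≠ 0 := by
    rintro rfl
    rw [hermForm_zero_left] at hfe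
    exact zero_ne_one hfe
  obtain ⟨le, hle⟩ := semi_eigen_sub hF hF₀ hn ι hpow σ hι ha he0 he
  obtain ⟨lf, hlf⟩ := semi_eigen_sub hF hF₀ hn ι hpow σ hι ha hf0 hf
  have key := semi_pair_sub hF hF₀ hn ι hpow σ hι ha he hf hef hfe hle hlf
  have h1 : lf = le := by simpa using key 1
  have hle0 : le ≠ 0 := by
    rintro rfl
    have := semi_herm g τ (⇑ι ∘ e) (⇑ι ∘ f)
    rw [hle, zero_smul, hermForm_zero_left, herm_emb ι hpow, hef, map_one, map_one] at this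
    exact zero_ne_one this
  have hτ : ∀ t : F₀, τ (ι t) = ι t := by
    intro t
    have := key t
    rw [h1, mul_comm] at this
    exact mul_left_cancel₀ hle0 this
  refine ⟨hτ, le, ?_⟩
  have hsemi : ∀ x : V₀, semi g τ (⇑ι ∘ x) = g.1.1 *ᵥ (⇑ι ∘ x : V) := by
    intro x
    unfold semi
    congr 1
    funext i
    exact hτ _
  -- all eigenvalues agree
  have hall : ∀ v : V₀, H₀ v v = 0 → g.1.1 *ᵥ (⇑ι ∘ v : V) = le • (⇑ι ∘ v : V) := by
    intro v hv
    by_cases hv0 : v = 0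
    · rw [hv0]
      have : (⇑ι ∘ (0 : V₀) : V) = 0 := by funext i; simp
      rw [this, mulVec_zero, smul_zero]
    obtain ⟨lv, hlv⟩ := semi_eigen_sub hF hF₀ hn ι hpow σ hι ha hv0 hv
    obtain ⟨y, hy, hvy, hey⟩ := exists_isotropic_not_perp hF₀ hv0 he0 hv he
    have hy0 : y ≠ 0 := by
      rintro rfl
      exact hvy (hermForm_zero_right hF₀ _)
    obtain ⟨ly, hly⟩ := semi_eigen_sub hF hF₀ hn ι hpow σ hι ha hy0 hy
    have aux : ∀ (u : V₀) (lu : F), H₀ u u = 0 → H₀ u y ≠ 0 →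
        semi g τ (⇑ι ∘ u) = lu • (⇑ι ∘ u : V) → ly = lu := by
      intro u lu hu huy hlu
      have hs : H₀ u (((H₀ u y)⁻¹) ^ q₀ • y) = 1 := by
        rw [hermForm_smul_right, pow_q_pow_q hF₀, inv_mul_cancel₀ huy]
      have := semi_pair_sub hF hF₀ hn ι hpow σ hι ha hu
        (by rw [hermForm_smul_left, hermForm_smul_right, hy]; simp) hs
        (by rw [← hermForm_swap hF₀, hs, one_pow]) hlu
        (lf := ly) (by rw [emb_smul, semi_smul, hly, smul_comm, hτ]) 1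
      simpa using this
    rw [← hsemi, hlv, ← aux v lv hv hvy hlv, aux e le he hey hle]
  -- the isotropic vectors span
  have hspan : ∀ x : V₀, g.1.1 *ᵥ (⇑ι ∘ x : V) = le • (⇑ι ∘ x : V) := by
    intro x
    have hx := mem_span_isotropic (hermH hF₀ n) (by rw [Module.finrank_fin_fun]; omega) x
    induction hx using Submodule.span_induction with
    | mem v hv => exact hall v hv
    | zero =>
      have : (⇑ι ∘ (0 : V₀) : V) = 0 := by funext i; simp
      rw [this, mulVec_zero, smul_zero]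
    | add u v _ _ hu hv => rw [emb_add, mulVec_add, hu, hv, smul_add]
    | smul c v _ hv => rw [emb_smul, mulVec_smul, hv, smul_comm]
  have hmat : g.1.1 = le • (1 : Matrix (Fin n) (Fin n) F) := by
    ext k l
    have hs : (⇑ι ∘ (Pi.single l 1 : V₀) : V) = Pi.single l 1 := by
      funext j
      by_cases hj : j = l
      · subst hj; simp
      · simp [Pi.single_eq_of_ne hj]
    have := congrFun (hspan (Pi.single l 1)) k
    rw [hs, mulVec_single_one] at this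
    simp only [Matrix.col_apply, Pi.smul_apply, smul_eq_mul] at this
    rw [this]
    by_cases hkl : k = l
    · subst hkl; simp
    · simp [Matrix.one_apply_ne hkl, Pi.single_eq_of_ne hkl]
  intro x
  rw [hmat, smul_mulVec, one_mulVec]

end

variable {n q : ℕ} {F : Type*} [Field F] [Fintype F]

/-- [Q1] -/
theorem hc_UF {r f : ℕ} [Fact r.Prime] (hq : q = r ^ f) (hf : 1 ≤ f)
    (hF : Fintype.card F = q ^ 2) (hn : 3 ≤ n) (hfac : Fac n F q) (σ : F ≃+* F) {p : ℕ}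
    (hp : p.Prime) (hσ : orderOf σ = p) (hodd : Odd p) (a : MulAut (Cfsg.PSU n F q))
    (ha : ∀ k ∈ LLg (fieldSU σ : MulAut ↥(Cfsg.SU n F q)), a k = k) : a ^ p = 1 := by
  obtain ⟨g, τ, rfl⟩ := hfac a
  have hF' : Fintype.card F = r ^ (2 * f) := by rw [hF, hq, ← pow_mul, mul_comm]
  have hp2 : p ∣ 2 * f := hσ ▸ orderOf_dvd_of_card hF' σ
  have hpf : p ∣ f := Nat.Coprime.dvd_of_dvd_mul_left (Nat.Coprime.symm hodd.coprime_two_left) hp2
  have hdiv : 2 * f / p = 2 * (f / p) := Nat.mul_div_assoc 2 hpf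
  haveI : Fintype (fixK σ) := Fintype.ofFinite _
  have hF₀ : Fintype.card (fixK σ) = (r ^ (f / p)) ^ 2 := by
    rw [Fintype.card_eq_nat_card, card_fixK hF' (by omega) σ, hσ, hdiv, ← pow_mul, mul_comm]
  have hpow : ∀ y : fixK σ, y ^ q = y ^ (r ^ (f / p)) := by
    intro y
    obtain ⟨k, hk⟩ := hodd
    have : q = (r ^ (f / p)) ^ (2 * k + 1) := by
      rw [← pow_mul, ← hk, Nat.div_mul_cancel hpf, hq]
    rw [this, pow_q_odd hF₀]
  obtain ⟨hτ, c, hc⟩ := rigid_sub hF hF₀ hn (fixK σ).subtype hpow σ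
    (fun y => mem_fixK.1 y.2) ha
  have hτ' : τ ∈ Subgroup.zpowers σ := by
    apply mem_zpowers_of_fix'
    intro x hx
    exact hτ ⟨x, mem_fixK.2 hx⟩
  obtain ⟨k, rfl⟩ := Subgroup.mem_zpowers_iff.1 hτ'
  rw [cGU_eq_one_of_scalar hc, one_mul, ← map_pow, ← zpow_natCast, ← _root_.zpow_mul, mul_comm,
    _root_.zpow_mul, zpow_natCast, ← hσ, pow_orderOf_eq_one, _root_.one_zpow, map_one]

end Cfsg.Agent.Lib.Helper95.LBP
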