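import Cfsg.Agent.Lib.Helper95.LBQ3
import Cfsg.Agent.Lib.Helper44.GraphTwoSp
import Cfsg.Agent.Lib.Helper44.GraphStd

set_option autoImplicit false
set_option linter.unusedSectionVars false

/-!
Piece Q3' (`descent`) of the S2687 farm: descent with the standard alternating form.
-/

namespace Cfsg.Agent.Lib.Helper95.LBP

open Matrix Cfsg.Agent.Lib.Helper43.PA Cfsg.Agent.Lib.Helper43.PU Cfsg.Agent.Lib.Helper44
  Cfsg.Agent.Lib.Helper80.LBP

lemma congr_fix {n : ℕ} {K : Type*} [Field K] {A J y : GL (Fin n) K}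
    (h : J.1 = y.1 * A.1 * y.1ᵀ) (s : SpecialLinearGroup (Fin n) K) :
    (conjSL J * invT : MulAut (SpecialLinearGroup (Fin n) K)) (conjSL y s)
      = conjSL y ((conjSL A * invT : MulAut (SpecialLinearGroup (Fin n) K)) s) := by
  have h1 : J * invTGL y = y * A := by
    apply Units.ext
    have h0 : (y⁻¹ : GL (Fin n) K).1 * y.1 = 1 := by
      rw [← Units.val_mul, inv_mul_cancel]; rfl
    rw [Units.val_mul, Units.val_mul, invTGL_coe, h, Matrix.mul_assoc, ← transpose_mul, h0,
      transpose_one, Matrix.mul_one]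
  have h2 : (conjSL J * invT * conjSL y : MulAut (SpecialLinearGroup (Fin n) K))
      = conjSL y * (conjSL A * invT) := by
    rw [mul_assoc, invT_mul_conjSL, ← mul_assoc, ← map_mul, h1, map_mul, mul_assoc]
  exact DFunLike.congr_fun h2 s

variable {n q : ℕ} {F : Type*} [Field F] [Fintype F]

/-- [Q3'] the same with the standard alternating form -/
theorem descent (hF : Fintype.card F = q ^ 2) (h2 : (2 : F) ≠ 0) (hn : 3 ≤ n)
    (g : ↥(Cfsg.GU n F q)) (hg : (cGU g * fAU (barE hF)) ^ 2 = 1) :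
    ∃ (x : GL (Fin n) F) (A : GL (Fin n) ↥(fixK (barE hF))) (u : Fˣ),
      (A.1ᵀ = A.1 ∨ ∃ (m : ℕ) (e : Fin m ⊕ Fin m ≃ Fin n),
        A = reGL e (JGL m ↥(fixK (barE hF)))) ∧ g.1 = scGL u * (x * (mapGL (barE hF) x)⁻¹) ∧
      ∀ s : SpecialLinearGroup (Fin n) F,
        ((∃ hs : s ∈ Cfsg.SU n F q, (conjSU g * fieldSU (barE hF) : MulAut ↥(Cfsg.SU n F q)) ⟨s, hs⟩
            = ⟨s, hs⟩) ↔
          ∃ s0 : SpecialLinearGroup (Fin n) ↥(fixK (barE hF)),
            (conjSL A * invT : MulAut (SpecialLinearGroup (Fin n) ↥(fixK (barE hF)))) s0 = s0 ∧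
            s.1 = x.1 * s0.1.map (fixK (barE hF)).subtype * (x⁻¹ : GL (Fin n) F).1) := by
  obtain ⟨x, A, u, hA | hA, hg', hs⟩ := descent0 hF h2 hn g hg
  · exact ⟨x, A, u, Or.inl hA, hg', hs⟩
  have hι := fixK_iff (barE hF)
  have h2' : (2 : ↥(fixK (barE hF))) ≠ 0 := by
    intro h
    apply h2
    have := congrArg (fixK (barE hF)).subtype h
    rw [map_ofNat, map_zero] at this
    exact this
  have hev : Even n := by
    by_contra hodd
    rw [Nat.not_even_iff_odd] at hodd
    have h1 : A.1.det = -A.1.det := by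
      conv_lhs => rw [← det_transpose, hA, det_neg, Fintype.card_fin, hodd.neg_one_pow]
      ring
    have h3 : A.1.det ≠ 0 := ((Matrix.isUnit_iff_isUnit_det _).1 A.isUnit).ne_zero
    have h4 : (2 : ↥(fixK (barE hF))) * A.1.det = 0 := by linear_combination h1
    exact (mul_ne_zero h2' h3) h4
  obtain ⟨m, hm⟩ := hev
  let e : Fin m ⊕ Fin m ≃ Fin n := finSumFinEquiv.trans (finCongr hm.symm)
  obtain ⟨y, hy⟩ := exists_congr_alt A (reGL e (JGL m ↥(fixK (barE hF)))) (alt_of_skew h2' hA) (by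
    intro z
    rw [reGL_coe, reindex_bilin, JGL_coe, J_alt])
  refine ⟨x * iG (fixK (barE hF)).subtype y⁻¹, reGL e (JGL m ↥(fixK (barE hF))), u,
    Or.inr ⟨m, e, rfl⟩, ?_, ?_⟩
  · rw [hg', map_mul, mapGL_iG hF _ hι]
    congr 1
    group
  · intro s
    rw [hs s]
    have hval : ∀ s0 : SpecialLinearGroup (Fin n) ↥(fixK (barE hF)),
        (x * iG (fixK (barE hF)).subtype y⁻¹ : GL (Fin n) F).1
          * (conjSL y s0).1.map (fixK (barE hF)).subtype
          * ((x * iG (fixK (barE hF)).subtype y⁻¹)⁻¹ : GL (Fin n) F).1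
        = x.1 * s0.1.map (fixK (barE hF)).subtype * (x⁻¹ : GL (Fin n) F).1 := by
      intro s0
      have e1 : (conjSL y s0).1.map (fixK (barE hF)).subtype
          = (iG (fixK (barE hF)).subtype (y * SpecialLinearGroup.toGL s0 * y⁻¹)).1 := by
        rw [iG_coe, conjSL_coe]; rfl
      have e2 : s0.1.map (fixK (barE hF)).subtype
          = (iG (fixK (barE hF)).subtype (SpecialLinearGroup.toGL s0)).1 := rfl
      rw [e1, e2, ← Units.val_mul, ← Units.val_mul, ← Units.val_mul, ← Units.val_mul]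
      congr 1
      simp only [map_mul, map_inv]
      group
    constructor
    · rintro ⟨s0, h1, h3⟩
      refine ⟨conjSL y s0, ?_, ?_⟩
      · rw [congr_fix hy, h1]
      · rw [hval, h3]
    · rintro ⟨s1, h1, h3⟩
      refine ⟨conjSL y⁻¹ s1, ?_, ?_⟩
      · have e3 : conjSL y (conjSL y⁻¹ s1) = s1 := by
          rw [← MulAut.mul_apply, ← map_mul, mul_inv_cancel, map_one]; rfl
        have h4 := congr_fix hy (conjSL y⁻¹ s1)
        rw [e3, h1] at h4
        apply (conjSL y).injective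
        rw [← h4, e3]
      · have e3 : conjSL y (conjSL y⁻¹ s1) = s1 := by
          rw [← MulAut.mul_apply, ← map_mul, mul_inv_cancel, map_one]; rfl
        rw [← hval, e3, h3]

end Cfsg.Agent.Lib.Helper95.LBP
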