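import Cfsg.Agent.Lib.Helper80.LBP.Defs

set_option autoImplicit false

/-!
Common lemmas for the pieces P7 (`hc_S`) and P9 (`hc_F`) of the S2686 farm.
-/

namespace Cfsg.Agent.Lib.Helper95.LBP

open Matrix Cfsg.Agent.Lib.Helper43.PA Cfsg.Agent.Lib.Helper44 Cfsg.Agent.Lib.Helper80.LBP

variable {n : ℕ} {F : Type*} [Field F]

lemma fieldSL_tv (τ : F ≃+* F) {u φ : Fin n → F} (h : φ ⬝ᵥ u = 0) :
    fieldSL τ (tv u φ) = tv (fun i => τ (u i)) (fun i => τ (φ i)) := by
  have h' : (fun i => τ (φ i)) ⬝ᵥ (fun i => τ (u i)) = 0 := by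
    have := congrArg τ h
    rw [map_zero] at this
    rw [← this]
    simp only [dotProduct, map_sum, map_mul]
  apply SL_ext
  rw [fieldSL_coe, tv_coe h, tv_coe h']
  ext i j
  simp only [Matrix.map_apply, Matrix.add_apply, vecMulVec_apply, map_add, map_mul]
  congr 1
  by_cases hij : i = j
  · subst hij; simp
  · simp [Matrix.one_apply_ne hij]

lemma IsTv.fieldSL' (τ : F ≃+* F) {s : SpecialLinearGroup (Fin n) F} (h : IsTv s) :
    IsTv (fieldSL τ s) := by
  obtain ⟨a, φ, h0, rfl⟩ := h.exists_tv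
  rw [fieldSL_tv τ h0]
  exact isTv_tv _ _

/-- K1 -/
lemma mul_map_eq (hn : 1 ≤ n) (h : GL (Fin n) F) (τ : F ≃+* F)
    {s : SpecialLinearGroup (Fin n) F} (hs : IsTv s)
    (hfix : (cG h * fA τ : MulAut (ProjectiveSpecialLinearGroup (Fin n) F)) (QuotientGroup.mk s)
      = QuotientGroup.mk s) :
    h.1 * s.1.map τ = s.1 * h.1 := by
  rw [MulAut.mul_apply, fA_mk, cG_mk] at hfix
  have h1 : conjSL h (fieldSL τ s) = s :=
    IsTv.eq_of_mk_eq hn ((IsTv.fieldSL' τ hs).conjSL h) hs hfix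
  have h2 := congrArg Subtype.val h1
  rw [conjSL_coe, fieldSL_coe] at h2
  have h3 : (h⁻¹ : GL (Fin n) F).1 * h.1 = 1 := by
    rw [← Units.val_mul, inv_mul_cancel]; rfl
  calc h.1 * s.1.map τ = h.1 * s.1.map τ * ((h⁻¹ : GL (Fin n) F).1 * h.1) := by
        rw [h3, Matrix.mul_one]
    _ = (h.1 * s.1.map τ * (h⁻¹ : GL (Fin n) F).1) * h.1 := by rw [Matrix.mul_assoc, Matrix.mul_assoc, Matrix.mul_assoc]
    _ = s.1 * h.1 := by rw [h2]

lemma prop_of_vecMulVec_eq {a u φ' φ : Fin n → F} (h : vecMulVec a φ' = vecMulVec u φ)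
    (hu : u ≠ 0) (hφ : φ ≠ 0) : ∃ c : F, a = c • u := by
  obtain ⟨k, hk⟩ := Function.ne_iff.1 hu
  obtain ⟨l, hl⟩ := Function.ne_iff.1 hφ
  have e : ∀ i j, a i * φ' j = u i * φ j := fun i j => by
    have := congrFun (congrFun h i) j
    simpa [vecMulVec_apply] using this
  have h1 : φ' l ≠ 0 := by
    intro h0
    have := e k l
    rw [h0, mul_zero] at this
    exact (mul_ne_zero hk hl) this.symm
  refine ⟨φ l / φ' l, ?_⟩
  ext i
  have := e i l
  simp only [Pi.smul_apply, smul_eq_mul]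
  field_simp
  linear_combination this

lemma mulVec_ne_zero (h : GL (Fin n) F) {v : Fin n → F} (hv : v ≠ 0) : h.1 *ᵥ v ≠ 0 := by
  intro h0
  apply hv
  have h3 : (h⁻¹ : GL (Fin n) F).1 * h.1 = 1 := by
    rw [← Units.val_mul, inv_mul_cancel]; rfl
  calc v = ((h⁻¹ : GL (Fin n) F).1 * h.1) *ᵥ v := by rw [h3, one_mulVec]
    _ = (h⁻¹ : GL (Fin n) F).1 *ᵥ (h.1 *ᵥ v) := by rw [mulVec_mulVec]
    _ = 0 := by rw [h0, mulVec_zero]

lemma vecMul_ne_zero (h : GL (Fin n) F) {v : Fin n → F} (hv : v ≠ 0) : v ᵥ* h.1 ≠ 0 := by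
  intro h0
  apply hv
  have h3 : h.1 * (h⁻¹ : GL (Fin n) F).1 = 1 := by
    rw [← Units.val_mul, mul_inv_cancel]; rfl
  calc v = v ᵥ* (h.1 * (h⁻¹ : GL (Fin n) F).1) := by rw [h3, vecMul_one]
    _ = (v ᵥ* h.1) ᵥ* (h⁻¹ : GL (Fin n) F).1 := by rw [vecMul_vecMul]
    _ = 0 := by rw [h0, zero_vecMul]

/-- K2: a semilinear map fixing all lines is a scalar. -/
lemma scalar_of_lines (hn : 2 ≤ n) (h : GL (Fin n) F) (τ : F ≃+* F)
    (H : ∀ u : Fin n → F, u ≠ 0 → ∃ c : F, h.1 *ᵥ (fun i => τ (u i)) = c • u) :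
    τ = 1 ∧ ∃ c : Fˣ, h = scGL c := by
  classical
  have hsingle : ∀ i : Fin n, (fun k => τ ((Pi.single i 1 : Fin n → F) k)) = Pi.single i 1 := by
    intro i
    ext k
    by_cases hk : k = i
    · subst hk; simp
    · simp [Pi.single_eq_of_ne hk]
  have hne : ∀ i : Fin n, (Pi.single i 1 : Fin n → F) ≠ 0 := by
    intro i h0
    have := congrFun h0 i
    simp at this
  choose lam hlam using fun i : Fin n => H (Pi.single i 1) (hne i)
  simp only [hsingle] at hlam
  -- general combination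
  have key : ∀ i j : Fin n, i ≠ j → ∀ x : F, lam i = lam j ∧ lam j * τ x = lam j * x := by
    intro i j hij x
    have comb : ∀ y : Fin n → F, ∀ x : F, y = Pi.single i 1 + x • Pi.single j 1 →
        ∃ c, lam i = c ∧ lam j * τ x = c * x := by
      intro y x hy
      have hy0 : y ≠ 0 := by
        intro h0
        have := congrFun h0 i
        rw [hy] at this
        simp [Pi.single_eq_of_ne hij] at this
      obtain ⟨c, hc⟩ := H y hy0
      have hτy : (fun k => τ (y k)) = Pi.single i 1 + τ x • Pi.single j 1 := by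
        ext k
        rw [hy]
        simp only [Pi.add_apply, Pi.smul_apply, smul_eq_mul, map_add, map_mul]
        have e1 := congrFun (hsingle i) k
        have e2 := congrFun (hsingle j) k
        simp only at e1 e2
        rw [e1, e2]
      rw [hτy, mulVec_add, mulVec_smul, hlam, hlam, hy] at hc
      refine ⟨c, ?_, ?_⟩
      · have := congrFun hc i
        simpa [Pi.single_eq_of_ne hij] using this
      · have := congrFun hc j
        simp [Pi.single_eq_of_ne hij.symm] at this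
        linear_combination this
    obtain ⟨c, h1, h2⟩ := comb _ 1 rfl
    obtain ⟨d, h3, h4⟩ := comb _ x rfl
    rw [map_one, mul_one, mul_one] at h2
    refine ⟨h1.trans h2.symm, ?_⟩
    rw [h4, ← h3, h1, ← h2]
  have i0 : Fin n := ⟨0, by omega⟩
  have i1 : Fin n := ⟨1, by omega⟩
  obtain ⟨i0, i1, h01⟩ : ∃ i0 i1 : Fin n, i0 ≠ i1 :=
    ⟨⟨0, by omega⟩, ⟨1, by omega⟩, by simp [Fin.ext_iff]⟩
  have hl0 : ∀ i, lam i ≠ 0 := by
    intro i h0
    have := hlam i
    rw [h0, zero_smul] at this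
    exact mulVec_ne_zero h (hne i) this
  have hall : ∀ i, lam i = lam i1 := by
    intro i
    by_cases hi : i = i1
    · rw [hi]
    · exact (key i i1 hi 0).1
  refine ⟨?_, Units.mk0 (lam i1) (hl0 i1), ?_⟩
  · ext x
    exact mul_left_cancel₀ (hl0 i1) (key i0 i1 h01 x).2
  · apply Units.ext
    rw [scGL_coe]
    ext k l
    have := congrFun (hlam l) k
    rw [mulVec_single_one] at this
    simp only [Matrix.col_apply, Pi.smul_apply, smul_eq_mul] at this
    rw [this, hall l]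
    by_cases hkl : k = l
    · subst hkl; simp
    · simp [Matrix.scalar_apply, Matrix.diagonal_apply_ne _ hkl, Pi.single_eq_of_ne hkl]

lemma exists_card_pow (F : Type*) [Field F] [Fintype F] :
    ∃ (p f : ℕ), p.Prime ∧ 1 ≤ f ∧ Fintype.card F = p ^ f := by
  obtain ⟨p, hchar⟩ := CharP.exists F
  obtain ⟨f, hp, hf⟩ := FiniteField.card F p
  exact ⟨p, f, hp, f.2, hf⟩

end Cfsg.Agent.Lib.Helper95.LBP
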