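import Cfsg.Agent.Lib.Helper80.LBP.Gen
import Cfsg.Agent.Lib.Helper43.PU.Coset
import Cfsg.Agent.Lib.Helper43.PU.FacThm
import Cfsg.Agent.Lib.Helper44.GraphPSUTr

set_option autoImplicit false
set_option linter.unusedSectionVars false

/-!
Piece Q3 (`descent0`) of the S2687 farm: Galois descent for the involutions in the coset of the
`q`-power map.
-/

namespace Cfsg.Agent.Lib.Helper95.LBP

open Matrix Cfsg.Agent.Lib.Helper43.PA Cfsg.Agent.Lib.Helper43.PU Cfsg.Agent.Lib.Helper44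
  Cfsg.Agent.Lib.Helper80.LBP

section core

variable {F : Type*} [Field F] [Fintype F] {F₀ : Type*} [Field F₀] {q n : ℕ}
  (hF : Fintype.card F = q ^ 2) (ι : F₀ →+* F) (hι : ∀ x, barE hF x = x ↔ ∃ y, ι y = x)

lemma conj_sc (v : Fˣ) (g X : GL (Fin n) F) :
    (scGL v * g) * X * (scGL v * g)⁻¹ = g * X * g⁻¹ := by
  have : (scGL v * g) * X * (scGL v * g)⁻¹ = scGL v * (g * X * g⁻¹) * (scGL v)⁻¹ := by group
  rw [this, scGL_comm, mul_inv_cancel_right]

include hι in
lemma core_iff {g a : GL (Fin n) F} {v w : Fˣ} {M : GL (Fin n) F₀}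
    (ha : scGL v * g = a * (mapGL (barE hF) a)⁻¹)
    (hM : a⁻¹ * tauGL (barE hF) a = scGL w * iG ι M) (S : GL (Fin n) F) :
    (tauGL (barE hF) S = S ∧ g * mapGL (barE hF) S * g⁻¹ = S) ↔
      ∃ S0 : GL (Fin n) F₀, M * invTGL S0 * M⁻¹ = S0 ∧ S = a * iG ι S0 * a⁻¹ := by
  have hta : tauGL (barE hF) a = a * (scGL w * iG ι M) := by rw [← hM, mul_inv_cancel_left]
  have key : ∀ S0 : GL (Fin n) F₀, tauGL (barE hF) (a * iG ι S0 * a⁻¹)
      = a * iG ι (M * invTGL S0 * M⁻¹) * a⁻¹ := by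
    intro S0
    rw [map_mul, map_mul, map_inv, tau_iG hF ι hι, hta, map_mul (iG ι), map_mul (iG ι),
      map_inv (iG ι)]
    have := conj_sc w (iG ι M) (iG ι (invTGL S0))
    calc _ = a * ((scGL w * iG ι M) * iG ι (invTGL S0) * (scGL w * iG ι M)⁻¹) * a⁻¹ := by group
      _ = _ := by rw [this]
  have key2 : ∀ S : GL (Fin n) F, g * mapGL (barE hF) S * g⁻¹ = S ↔
      mapGL (barE hF) (a⁻¹ * S * a) = a⁻¹ * S * a := by
    intro S
    rw [← conj_sc v g, ha, map_mul, map_mul, map_inv]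
    constructor
    · intro h
      calc (mapGL (barE hF) a)⁻¹ * mapGL (barE hF) S * mapGL (barE hF) a
          = a⁻¹ * (a * (mapGL (barE hF) a)⁻¹ * mapGL (barE hF) S * (a * (mapGL (barE hF) a)⁻¹)⁻¹)
            * a := by group
        _ = _ := by rw [h]
    · intro h
      calc a * (mapGL (barE hF) a)⁻¹ * mapGL (barE hF) S * (a * (mapGL (barE hF) a)⁻¹)⁻¹
          = a * ((mapGL (barE hF) a)⁻¹ * mapGL (barE hF) S * mapGL (barE hF) a) * a⁻¹ := by group
        _ = S := by rw [h]; group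
  constructor
  · rintro ⟨h1, h2⟩
    obtain ⟨S0, hS0⟩ := (exists_map_eq ι (barE hF) hι _).1 ((key2 S).1 h2)
    have hS : S = a * iG ι S0 * a⁻¹ := by
      show S = a * (Matrix.GeneralLinearGroup.map ι S0) * a⁻¹
      rw [hS0]; group
    refine ⟨S0, ?_, hS⟩
    rw [hS, key] at h1
    apply iG_injective ι
    exact mul_left_cancel (mul_right_cancel h1)
  · rintro ⟨S0, h1, rfl⟩
    refine ⟨by rw [key, h1], (key2 _).2 ?_⟩
    have : a⁻¹ * (a * iG ι S0 * a⁻¹) * a = iG ι S0 := by group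
    rw [this, mapGL_iG hF ι hι]

include hι in
lemma sym_or_skew (hn : 1 ≤ n) {a : GL (Fin n) F} {w : Fˣ} {M : GL (Fin n) F₀}
    (hM : a⁻¹ * tauGL (barE hF) a = scGL w * iG ι M) : M.1ᵀ = M.1 ∨ M.1ᵀ = -M.1 := by
  have h1 : tauGL (barE hF) (scGL w * iG ι M) = (scGL w * iG ι M)⁻¹ := by
    rw [← hM, map_mul, map_inv, tau_tau]; group
  rw [map_mul, tauGL_scGL, tau_iG hF ι hι, _root_.mul_inv_rev, ← map_inv (iG ι),
    ← map_inv scGL w] at h1
  have h2 : iG ι (invTGL M) = scGL (uM (barE hF) w * w⁻¹) * iG ι M⁻¹ := by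
    rw [map_mul, mul_assoc, scGL_comm w⁻¹, ← h1, ← mul_assoc, ← map_mul, mul_inv_cancel, map_one,
      one_mul]
  obtain ⟨e₀, -, he₀⟩ := scalar_descend hF ι hι hn h2
  have h3 : M.1ᵀ = (e₀⁻¹ : F₀ˣ).1 • M.1 := by
    have h4 : (invTGL M)⁻¹ = M * scGL e₀⁻¹ := by
      rw [he₀, _root_.mul_inv_rev, inv_inv, map_inv]
    have h5 := congrArg Units.val h4
    rw [invTGL_inv_coe, Units.val_mul, scGL_coe] at h5
    rw [h5]
    ext i j
    simp [Matrix.scalar_apply, Matrix.mul_diagonal, mul_comm]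
  set c : F₀ := (e₀⁻¹ : F₀ˣ).1 with hc
  have h6 : M.1 = (c * c) • M.1 := by
    have := congrArg Matrix.transpose h3
    rw [transpose_transpose, transpose_smul, h3, smul_smul] at this
    exact this
  have hM0 : M.1 ≠ 0 := GL_ne_zero hn M
  obtain ⟨i, j, hij⟩ : ∃ i j, M.1 i j ≠ 0 := by
    by_contra hcon
    push Not at hcon
    exact hM0 (by ext i j; exact hcon i j)
  have h7 : c * c = 1 := by
    have := congrFun (congrFun h6 i) j
    simp only [Matrix.smul_apply, smul_eq_mul] at this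
    have h8 : (c * c - 1) * M.1 i j = 0 := by linear_combination -this
    rcases mul_eq_zero.1 h8 with h | h
    · linear_combination h
    · exact absurd h hij
  rcases mul_self_eq_one_iff.1 h7 with h | h
  · left; rw [h3, h, one_smul]
  · right; rw [h3, h, neg_smul, one_smul]

end core

section glue

variable {n q : ℕ} {F : Type*} [Field F]

lemma toGL_val (s : SpecialLinearGroup (Fin n) F) : (SpecialLinearGroup.toGL s).1 = s.1 := rfl

lemma toGL_inv_val (s : SpecialLinearGroup (Fin n) F) :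
    ((SpecialLinearGroup.toGL s)⁻¹ : GL (Fin n) F).1 = (s⁻¹).1 := by
  rw [← map_inv]; rfl

lemma fix_iff_GL (A : GL (Fin n) F) (s : SpecialLinearGroup (Fin n) F) :
    (conjSL A * invT : MulAut (SpecialLinearGroup (Fin n) F)) s = s ↔
      A * invTGL (SpecialLinearGroup.toGL s) * A⁻¹ = SpecialLinearGroup.toGL s := by
  have e : (A * invTGL (SpecialLinearGroup.toGL s) * A⁻¹ : GL (Fin n) F).1
      = (conjSL A (invT s)).1 := by
    rw [conjSL_coe, Units.val_mul, Units.val_mul, invTGL_coe, toGL_inv_val, invT_apply]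
    rfl
  rw [MulAut.mul_apply]
  constructor
  · intro h
    apply Units.ext
    rw [e, h]; rfl
  · intro h
    apply SL_ext
    rw [← e, h]; rfl

lemma theta_iff_GL [Fintype F] (hF : Fintype.card F = q ^ 2) (g : ↥(Cfsg.GU n F q))
    (s : SpecialLinearGroup (Fin n) F) :
    (∃ hs : s ∈ Cfsg.SU n F q, (conjSU g * fieldSU (barE hF) : MulAut ↥(Cfsg.SU n F q)) ⟨s, hs⟩
      = ⟨s, hs⟩) ↔
    (tauGL (barE hF) (SpecialLinearGroup.toGL s) = SpecialLinearGroup.toGL s ∧
      g.1 * mapGL (barE hF) (SpecialLinearGroup.toGL s) * g.1⁻¹ = SpecialLinearGroup.toGL s) := by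
  have e1 : s ∈ Cfsg.SU n F q ↔ SpecialLinearGroup.toGL s ∈ Cfsg.GU n F q := Iff.rfl
  have e2 : g.1 * mapGL (barE hF) (SpecialLinearGroup.toGL s) * g.1⁻¹ = SpecialLinearGroup.toGL s ↔
      conjSL g.1 (fieldSL (barE hF) s) = s := by
    have e : (g.1 * mapGL (barE hF) (SpecialLinearGroup.toGL s) * g.1⁻¹ : GL (Fin n) F).1
        = (conjSL g.1 (fieldSL (barE hF) s)).1 := by
      rw [conjSL_coe, fieldSL_coe, Units.val_mul, Units.val_mul, mapGL_coe]
      rfl
    constructor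
    · intro h
      apply SL_ext
      rw [← e, h]; rfl
    · intro h
      apply Units.ext
      rw [e, h]; rfl
  rw [← mem_GU_iff_tau' hF, ← e1, e2]
  constructor
  · rintro ⟨hs, h⟩
    exact ⟨hs, congrArg Subtype.val h⟩
  · rintro ⟨hs, h⟩
    exact ⟨hs, Subtype.ext h⟩

end glue

variable {n q : ℕ} {F : Type*} [Field F] [Fintype F]

/-- [Q3] Galois descent for the involutions in the coset of the `q`-power map -/
theorem descent0 (hF : Fintype.card F = q ^ 2) (h2 : (2 : F) ≠ 0) (hn : 3 ≤ n)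
    (g : ↥(Cfsg.GU n F q)) (hg : (cGU g * fAU (barE hF)) ^ 2 = 1) :
    ∃ (x : GL (Fin n) F) (A : GL (Fin n) ↥(fixK (barE hF))) (u : Fˣ),
      (A.1ᵀ = A.1 ∨ A.1ᵀ = -A.1) ∧ g.1 = scGL u * (x * (mapGL (barE hF) x)⁻¹) ∧
      ∀ s : SpecialLinearGroup (Fin n) F,
        ((∃ hs : s ∈ Cfsg.SU n F q, (conjSU g * fieldSU (barE hF) : MulAut ↥(Cfsg.SU n F q)) ⟨s, hs⟩
            = ⟨s, hs⟩) ↔
          ∃ s0 : SpecialLinearGroup (Fin n) ↥(fixK (barE hF)),
            (conjSL A * invT : MulAut (SpecialLinearGroup (Fin n) ↥(fixK (barE hF)))) s0 = s0 ∧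
            s.1 = x.1 * s0.1.map (fixK (barE hF)).subtype * (x⁻¹ : GL (Fin n) F).1) := by
  have hι := fixK_iff (barE hF)
  have h1 := hg
  rw [pow_cGU_fAU] at h1
  have hσ2 : (barE hF) ^ 2 = 1 := by rw [sq, barE_mul_self]
  rw [hσ2, map_one, mul_one] at h1
  obtain ⟨s, -, hs⟩ := exists_scGL_of_scalar hF hn h1
  rw [nrmU_coe] at hs
  have hs' : g.1 * mapGL (barE hF) g.1 = scGL s := by
    simpa [nrm_succ, nrm_zero] using hs
  have hsb : uM (barE hF) s = s := by
    apply scGL_injective (n := n) (by omega)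
    rw [← mapGL_scGL, ← hs', map_mul, mapGL_bar_bar]
    have h3 : mapGL (barE hF) g.1 = g.1⁻¹ * scGL s := by rw [← hs', inv_mul_cancel_left]
    rw [h3, mul_assoc, scGL_comm, inv_mul_cancel_left, mul_inv_cancel_left]
  obtain ⟨v, hv⟩ := norm_surj hF s⁻¹ (by rw [map_inv, hsb])
  have hA1 : (scGL v * g.1) * mapGL (barE hF) (scGL v * g.1) = 1 := by
    rw [map_mul, mapGL_scGL, mul_assoc, ← mul_assoc g.1, ← scGL_comm, mul_assoc, hs', ← map_mul,
      ← map_mul, ← mul_assoc, hv, inv_mul_cancel, map_one]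
  obtain ⟨a, ha⟩ := hilbert90_GL (barE hF) (scGL v * g.1) 2 (orderOf_barE hF) (by norm_num) (by
    simpa [nrm_succ, nrm_zero] using hA1)
  have hACU : scGL v * g.1 ∈ CU hF n := (CU hF n).mul_mem (scGL_mem_CU hF v) (GU_le_CU hF g.2)
  have hH : cG (mapGL (barE hF) (a⁻¹ * tauGL (barE hF) a)) = cG (a⁻¹ * tauGL (barE hF) a) := by
    have h4 := (mem_CU' hF (by omega) _).1 hACU
    rw [ha, map_mul, map_inv, ← mapGL_tau] at h4
    simp only [map_mul, map_inv] at h4 ⊢
    exact grp_T1 h4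
  obtain ⟨M, hM⟩ := descend' hF (fixK (barE hF)).subtype hι (by omega) hH
  obtain ⟨w, hw⟩ := (cG_eq_iff (by omega) _ _).1 hM
  refine ⟨a, M, v⁻¹, sym_or_skew hF _ hι (by omega) hw, ?_, ?_⟩
  · rw [← ha, ← mul_assoc, ← map_mul, inv_mul_cancel, map_one, one_mul]
  · intro s
    rw [theta_iff_GL hF g s, core_iff hF _ hι ha hw]
    constructor
    · rintro ⟨S0, h5, h6⟩
      have h7 : s.1 = a.1 * S0.1.map (fixK (barE hF)).subtype * (a⁻¹ : GL (Fin n) F).1 :=
        congrArg Units.val h6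
      have hdet : S0.1.det = 1 := by
        have h8 := s.2
        rw [h7, Matrix.det_units_conj] at h8
        have h9 : (S0.1.map (fixK (barE hF)).subtype).det
            = (fixK (barE hF)).subtype S0.1.det := by
          rw [RingHom.map_det]; rfl
        rw [h9] at h8
        exact (fixK (barE hF)).subtype.injective (by rw [h8, map_one])
      let s0 : SpecialLinearGroup (Fin n) ↥(fixK (barE hF)) := ⟨S0.1, hdet⟩
      have e : SpecialLinearGroup.toGL s0 = S0 := Units.ext rfl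
      refine ⟨s0, (fix_iff_GL M s0).2 ?_, h7⟩
      rw [e, h5]
    · rintro ⟨s0, h5, h6⟩
      exact ⟨SpecialLinearGroup.toGL s0, (fix_iff_GL M s0).1 h5, Units.ext h6⟩

end Cfsg.Agent.Lib.Helper95.LBP
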