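import Mathlib

set_option autoImplicit false

namespace Cfsg.Agent.Lib.Helper95

variable (F K : Type*) [Field F] [Field K] [Algebra F K]

/-- the Singer group: multiplications by nonzero elements of `K`. -/
abbrev singer : Subgroup (Module.End F K)ˣ :=
  (Units.map ((Algebra.lmul F K : K →ₐ[F] Module.End F K) : K →* Module.End F K)).range

variable {F K}

/-- multiplication by a unit, as a unit of the endomorphism ring -/
abbrev mulU (c : Kˣ) : (Module.End F K)ˣ :=
  Units.map ((Algebra.lmul F K : K →ₐ[F] Module.End F K) : K →* Module.End F K) c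

@[simp] theorem mulU_apply (c : Kˣ) (x : K) : (mulU (F := F) c).1 x = c * x := rfl

theorem units_ext {g h : (Module.End F K)ˣ} (H : ∀ x, g.1 x = h.1 x) : g = h :=
  Units.ext (LinearMap.ext H)

theorem inv_apply_apply (g : (Module.End F K)ˣ) (x : K) : (g⁻¹).1 (g.1 x) = x := by
  have : (g⁻¹ * g).1 x = x := by rw [inv_mul_cancel]; rfl
  exact this

theorem apply_inv_apply (g : (Module.End F K)ˣ) (x : K) : g.1 ((g⁻¹).1 x) = x := by
  have : (g * g⁻¹).1 x = x := by rw [mul_inv_cancel]; rfl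
  exact this

theorem units_injective (g : (Module.End F K)ˣ) : Function.Injective g.1 := by
  intro x y h
  rw [← inv_apply_apply g x, h, inv_apply_apply]

theorem mem_singer_iff (g : (Module.End F K)ˣ) :
    g ∈ singer F K ↔ ∃ c : Kˣ, ∀ x, g.1 x = c * x := by
  constructor
  · rintro ⟨c, rfl⟩
    exact ⟨c, fun x => rfl⟩
  · rintro ⟨c, hc⟩
    exact ⟨c, units_ext fun x => (hc x).symm⟩

/-- an `F`-algebra automorphism of `K` as a unit of the endomorphism ring -/
noncomputable def autU (σ : K ≃ₐ[F] K) : (Module.End F K)ˣ :=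
  LinearMap.GeneralLinearGroup.ofLinearEquiv σ.toLinearEquiv

@[simp] theorem autU_apply (σ : K ≃ₐ[F] K) (x : K) : (autU σ).1 x = σ x := rfl

@[simp] theorem autU_inv_apply (σ : K ≃ₐ[F] K) (x : K) : ((autU σ)⁻¹).1 x = σ.symm x := rfl

theorem autU_mem_normalizer (σ : K ≃ₐ[F] K) :
    autU σ ∈ Subgroup.normalizer ((singer F K : Subgroup (Module.End F K)ˣ) : Set (Module.End F K)ˣ) := by
  intro h
  simp only [SetLike.mem_coe]
  rw [mem_singer_iff, mem_singer_iff]
  constructor
  · rintro ⟨c, hc⟩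
    refine ⟨Units.map (σ : K →* K) c, fun x => ?_⟩
    show σ (h.1 (σ.symm x)) = σ c * x
    rw [hc, map_mul, AlgEquiv.apply_symm_apply]
  · rintro ⟨c, hc⟩
    refine ⟨Units.map (σ.symm : K →* K) c, fun x => ?_⟩
    have h1 : σ (h.1 (σ.symm (σ x))) = c * σ x := hc (σ x)
    rw [AlgEquiv.symm_apply_apply] at h1
    show h.1 x = σ.symm c * x
    apply σ.injective
    rw [h1, map_mul, AlgEquiv.apply_symm_apply]

/-- structure of the normaliser of the Singer group: its elements are `x ↦ c σ(x)`. -/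
theorem exists_of_mem_normalizer [Finite K] (g : (Module.End F K)ˣ)
    (hg : g ∈ Subgroup.normalizer ((singer F K : Subgroup (Module.End F K)ˣ) : Set (Module.End F K)ˣ)) :
    ∃ (c : Kˣ) (σ : K ≃ₐ[F] K), g = mulU c * autU σ := by
  -- conjugation formula
  have hconj : ∀ a : K, ∀ x : K, g.1 (a * (g⁻¹).1 x) = g.1 (a * (g⁻¹).1 1) * x := by
    intro a x
    by_cases ha : a = 0
    · subst ha; simp
    · have h1 : mulU (F := F) (Units.mk0 a ha) ∈ (singer F K : Set (Module.End F K)ˣ) := ⟨_, rfl⟩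
      have h2 := (hg _).mp h1
      simp only [SetLike.mem_coe] at h2
      obtain ⟨b, hb⟩ := (mem_singer_iff _).mp h2
      have e1 : ∀ y, g.1 (a * (g⁻¹).1 y) = b * y := fun y => hb y
      rw [e1 x, e1 1, mul_one]
  let τl : K →ₗ[F] K := g.1 ∘ₗ (LinearMap.mulRight F ((g⁻¹).1 1))
  have hτl : ∀ a, τl a = g.1 (a * (g⁻¹).1 1) := fun a => rfl
  have hτ1 : τl 1 = 1 := by rw [hτl, one_mul, apply_inv_apply]
  have hτmul : ∀ a b, τl (a * b) = τl a * τl b := by
    intro a b
    rw [hτl, hτl, hτl]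
    have h1 := hconj a (g.1 (b * (g⁻¹).1 1))
    rw [inv_apply_apply] at h1
    rw [← h1, mul_assoc]
  let τ : K →ₐ[F] K := AlgHom.ofLinearMap τl hτ1 hτmul
  have hτbij : Function.Bijective τ :=
    Finite.injective_iff_bijective.mp τ.toRingHom.injective
  let σ : K ≃ₐ[F] K := AlgEquiv.ofBijective τ hτbij
  have hc0 : g.1 1 ≠ 0 := by
    intro h
    have := units_injective g (h.trans (map_zero g.1).symm)
    exact one_ne_zero this
  refine ⟨Units.mk0 (g.1 1) hc0, σ, units_ext fun x => ?_⟩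
  show g.1 x = g.1 1 * τl x
  have h1 := hconj x (g.1 1)
  rw [inv_apply_apply, mul_one] at h1
  rw [h1, hτl, mul_comm]

theorem mem_normalizer_iff [Finite K] (g : (Module.End F K)ˣ) :
    g ∈ Subgroup.normalizer ((singer F K : Subgroup (Module.End F K)ˣ) : Set (Module.End F K)ˣ) ↔
    ∃ (c : Kˣ) (σ : K ≃ₐ[F] K), g = mulU c * autU σ := by
  constructor
  · exact exists_of_mem_normalizer g
  · rintro ⟨c, σ, rfl⟩
    exact mul_mem (Subgroup.le_normalizer ⟨c, rfl⟩) (autU_mem_normalizer σ)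

theorem card_normalizer [Finite K] :
    Nat.card (Subgroup.normalizer ((singer F K : Subgroup (Module.End F K)ˣ) : Set (Module.End F K)ˣ))
      = Module.finrank F K * (Nat.card K - 1) := by
  have : FiniteDimensional F K := Module.Finite.of_finite
  rw [← IsGalois.card_aut_eq_finrank F K, ← Nat.card_units, mul_comm, ← Nat.card_prod]
  symm
  refine Nat.card_congr (Equiv.ofBijective
    (fun cs : Kˣ × (K ≃ₐ[F] K) => ⟨mulU cs.1 * autU cs.2, (mem_normalizer_iff _).mpr ⟨cs.1, cs.2, rfl⟩⟩) ⟨?_, ?_⟩)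
  · rintro ⟨c, σ⟩ ⟨d, ρ⟩ h
    have h' : mulU (F := F) c * autU σ = mulU d * autU ρ := congrArg Subtype.val h
    have happ : ∀ x, (c : K) * σ x = d * ρ x := fun x => congrArg (fun u : (Module.End F K)ˣ => u.1 x) h'
    have hcd : c = d := by
      have := happ 1
      simp only [map_one, mul_one] at this
      exact Units.ext this
    subst hcd
    have hσ : σ = ρ := by
      ext x
      exact mul_left_cancel₀ c.ne_zero (happ x)
    rw [hσ]
  · rintro ⟨g, hg⟩
    obtain ⟨c, σ, rfl⟩ := (mem_normalizer_iff g).mp hg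
    exact ⟨(c, σ), rfl⟩

end Cfsg.Agent.Lib.Helper95
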