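import Mathlib
import Cfsg.Agent.Lib.Helper95.Singer

set_option autoImplicit false

namespace Cfsg.Agent.Lib.Helper95

variable {F K : Type*} [Field F] [Field K] [Algebra F K]

/-- the subfield of those `a` such that multiplication by `a` lies in `g L(K) g⁻¹`. -/
def conjField (g : (Module.End F K)ˣ) : IntermediateField F K where
  carrier := {a | ∃ b : K, ∀ x, g.1 (b * (g⁻¹).1 x) = a * x}
  mul_mem' := by
    rintro a a' ⟨b, hb⟩ ⟨b', hb'⟩
    refine ⟨b * b', fun x => ?_⟩
    have := hb (a' * x)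
    rw [← hb' x, inv_apply_apply] at this
    rw [mul_assoc, this, hb' x, mul_assoc]
  add_mem' := by
    rintro a a' ⟨b, hb⟩ ⟨b', hb'⟩
    refine ⟨b + b', fun x => ?_⟩
    rw [add_mul, map_add, hb, hb', add_mul]
  algebraMap_mem' := by
    intro r
    refine ⟨algebraMap F K r, fun x => ?_⟩
    rw [← Algebra.smul_def, map_smul, apply_inv_apply, Algebra.smul_def]
  inv_mem' := by
    rintro a ⟨b, hb⟩
    by_cases ha : a = 0
    · subst ha
      exact ⟨0, fun x => by simp⟩
    · have hb0 : b ≠ 0 := by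
        rintro rfl
        have := hb 1
        simp at this
        exact ha this.symm
      refine ⟨b⁻¹, fun x => ?_⟩
      have h1 := hb (g.1 (b⁻¹ * (g⁻¹).1 x))
      rw [inv_apply_apply, ← mul_assoc, mul_inv_cancel₀ hb0, one_mul, apply_inv_apply] at h1
      rw [eq_inv_mul_iff_mul_eq₀ ha]
      exact h1.symm

theorem mem_conjField (g : (Module.End F K)ˣ) (a : K) :
    a ∈ conjField g ↔ ∃ b : K, ∀ x, g.1 (b * (g⁻¹).1 x) = a * x := Iff.rfl

theorem mem_map_conj_singer (g h : (Module.End F K)ˣ) :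
    h ∈ (singer F K).map (MulAut.conj g).toMonoidHom ↔
      ∃ b : Kˣ, ∀ x, h.1 x = g.1 (b * (g⁻¹).1 x) := by
  constructor
  · rintro ⟨m, ⟨b, rfl⟩, rfl⟩
    exact ⟨b, fun x => rfl⟩
  · rintro ⟨b, hb⟩
    exact ⟨mulU b, ⟨b, rfl⟩, units_ext fun x => (hb x).symm⟩

theorem card_inter [Finite K] (g : (Module.End F K)ˣ) :
    Nat.card ↥((singer F K).map (MulAut.conj g).toMonoidHom ⊓ singer F K)
      = Nat.card (conjField g) - 1 := by
  rw [← Nat.card_units]
  have hmem : ∀ h : ↥((singer F K).map (MulAut.conj g).toMonoidHom ⊓ singer F K),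
      (h.1.1 1 ∈ conjField g ∧ h.1.1 1 ≠ 0) ∧ ∀ x, h.1.1 x = h.1.1 1 * x := by
    rintro ⟨h, h1, h2⟩
    obtain ⟨b, hb⟩ := (mem_map_conj_singer g h).mp h1
    obtain ⟨c, hc⟩ := (mem_singer_iff h).mp h2
    have hc1 : h.1 1 = c := by rw [hc, mul_one]
    refine ⟨⟨⟨b, fun x => ?_⟩, ?_⟩, ?_⟩
    · show _ = h.1 1 * x
      rw [← hb, hc1, hc]
    · show h.1 1 ≠ 0
      rw [hc1]; exact c.ne_zero
    · intro x
      show h.1 x = h.1 1 * x
      rw [hc1, hc]
  refine Nat.card_congr (Equiv.ofBijective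
    (fun h => Units.mk0 (⟨h.1.1 1, (hmem h).1.1⟩ : conjField g)
      (fun h0 => (hmem h).1.2 (congrArg Subtype.val h0))) ⟨?_, ?_⟩)
  · intro h h' e
    have e1 : h.1.1 1 = h'.1.1 1 := congrArg (fun u : (conjField g)ˣ => ((u : conjField g) : K)) e
    apply Subtype.ext
    apply units_ext
    intro x
    rw [(hmem h).2 x, (hmem h').2 x, e1]
  · intro u
    obtain ⟨b, hb⟩ := (u : conjField g).2
    have hu0 : ((u : conjField g) : K) ≠ 0 := fun h0 => u.ne_zero (Subtype.ext h0)
    have hb0 : b ≠ 0 := by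
      rintro rfl
      have := hb 1
      simp at this
      exact hu0 this.symm
    refine ⟨⟨mulU (Units.mk0 _ hu0), ?_, ⟨_, rfl⟩⟩, ?_⟩
    · exact (mem_map_conj_singer g _).mpr ⟨Units.mk0 b hb0, fun x => (hb x).symm⟩
    · apply Units.ext
      apply Subtype.ext
      show ((u : conjField g) : K) * 1 = _
      rw [mul_one]

theorem conjField_ne_top [Finite K] (g : (Module.End F K)ˣ)
    (hg : (singer F K).map (MulAut.conj g).toMonoidHom ≠ singer F K) : conjField g ≠ ⊤ := by
  intro htop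
  apply hg
  symm
  have : Finite (Module.End F K)ˣ := by
    have : Finite (K → K) := inferInstance
    have h1 : Finite (Module.End F K) := Finite.of_injective (fun f : Module.End F K => (f : K → K)) DFunLike.coe_injective
    exact Finite.of_injective (fun u : (Module.End F K)ˣ => u.1) Units.val_injective
  apply Subgroup.eq_of_le_of_card_ge
  · intro h hh
    obtain ⟨c, hc⟩ := (mem_singer_iff h).mp hh
    have hmem : (c : K) ∈ conjField g := by rw [htop]; trivial
    obtain ⟨b, hb⟩ := hmem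
    have hb0 : b ≠ 0 := by
      rintro rfl
      have := hb 1
      simp at this
      exact c.ne_zero this.symm
    rw [mem_map_conj_singer]
    exact ⟨Units.mk0 b hb0, fun x => by rw [hc]; exact (hb x).symm⟩
  · rw [Subgroup.card_map_of_injective (MulAut.conj g).injective]

end Cfsg.Agent.Lib.Helper95
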