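import Mathlib

/-!
Subgroups of a finite symmetric group containing 3-cycles: the maximal sets `O` all of whose
3-cycles lie in `H`.
-/

set_option autoImplicit false

namespace Cfsg.Agent.Lib.Helper95.ThreeCyc

open Equiv Equiv.Perm Subgroup

variable {α : Type*} [DecidableEq α]

/-- the 3-cycle `a → b → c → a`. -/
def cyc (a b c : α) : Perm α := swap a b * swap b c

theorem cyc_apply_fst {a b c : α} (hab : a ≠ b) (hac : a ≠ c) : cyc a b c a = b := by
  simp [cyc, swap_apply_of_ne_of_ne hab hac]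

theorem cyc_apply_snd {a b c : α} (hbc : b ≠ c) (hac : a ≠ c) : cyc a b c b = c := by
  simp [cyc, swap_apply_of_ne_of_ne hac.symm hbc.symm]

theorem cyc_apply_trd {a b c : α} : cyc a b c c = a := by
  simp [cyc]

theorem cyc_apply_of_ne {a b c x : α} (ha : x ≠ a) (hb : x ≠ b) (hc : x ≠ c) : cyc a b c x = x := by
  simp [cyc, swap_apply_of_ne_of_ne hb hc, swap_apply_of_ne_of_ne ha hb]

theorem cyc_rot {a b c : α} (hab : a ≠ b) (hbc : b ≠ c) (hac : a ≠ c) : cyc a b c = cyc b c a := by
  ext x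
  by_cases ha : x = a
  · subst ha; rw [cyc_apply_fst hab hac, cyc_apply_trd]
  by_cases hb : x = b
  · subst hb; rw [cyc_apply_snd hbc hac, cyc_apply_fst hbc hab.symm]
  by_cases hc : x = c
  · subst hc; rw [cyc_apply_trd, cyc_apply_snd hac.symm hab.symm]
  rw [cyc_apply_of_ne ha hb hc, cyc_apply_of_ne hb hc ha]

theorem cyc_inv (a b c : α) : (cyc a b c)⁻¹ = cyc c b a := by
  simp [cyc, mul_inv_rev, swap_comm]

theorem conj_cyc (g : Perm α) (a b c : α) : g * cyc a b c * g⁻¹ = cyc (g a) (g b) (g c) := by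
  unfold cyc
  have h1 : g * swap a b = swap (g a) (g b) * g := mul_swap_eq_swap_mul g a b
  have h2 : g * swap b c = swap (g b) (g c) * g := mul_swap_eq_swap_mul g b c
  calc g * (swap a b * swap b c) * g⁻¹ = (g * swap a b) * swap b c * g⁻¹ := by group
    _ = swap (g a) (g b) * (g * swap b c) * g⁻¹ := by rw [h1]; group
    _ = swap (g a) (g b) * swap (g b) (g c) := by rw [h2]; group

theorem isThreeCycle_cyc {a b c : α} [Fintype α] (hab : a ≠ b) (hbc : b ≠ c) (hac : a ≠ c) :
    (cyc a b c).IsThreeCycle := by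
  unfold cyc
  rw [swap_comm a b]
  exact isThreeCycle_swap_mul_swap_same hab.symm hbc hac

theorem exists_cyc_of_isThreeCycle [Fintype α] {σ : Perm α} (h : σ.IsThreeCycle) :
    ∃ a b c : α, a ≠ b ∧ b ≠ c ∧ a ≠ c ∧ σ = cyc a b c := by
  have hcard := h.card_support
  have hcyc := h.isCycle
  obtain ⟨a, ha⟩ : σ.support.Nonempty := by
    rw [← Finset.card_pos]; omega
  have ha' : σ a ≠ a := mem_support.mp ha
  have h3 : σ ^ 3 = 1 := by
    have := h.orderOf
    rw [← this]; exact pow_orderOf_eq_one σ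
  have h3a : σ (σ (σ a)) = a := by
    have := congrArg (fun f : Perm α => f a) h3
    simpa [pow_succ, Perm.mul_apply] using this
  have hab : a ≠ σ a := ha'.symm
  have hbc : σ a ≠ σ (σ a) := fun e => hab (σ.injective e)
  have hac : a ≠ σ (σ a) := by
    intro e
    have : σ a = a := by
      have h1 : σ (σ (σ a)) = σ a := by rw [← e]
      rw [h3a] at h1; exact h1.symm
    exact ha' this
  refine ⟨a, σ a, σ (σ a), hab, hbc, hac, ?_⟩
  have hsupp : σ.support = {a, σ a, σ (σ a)} := by
    symm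
    apply Finset.eq_of_subset_of_card_le
    · intro x hx
      simp only [Finset.mem_insert, Finset.mem_singleton] at hx
      rcases hx with rfl | rfl | rfl
      · exact ha
      · exact apply_mem_support.mpr ha
      · exact apply_mem_support.mpr (apply_mem_support.mpr ha)
    · rw [hcard, Finset.card_insert_of_notMem, Finset.card_insert_of_notMem, Finset.card_singleton]
      · simpa using hbc
      · simp only [Finset.mem_insert, Finset.mem_singleton, not_or]; exact ⟨hab, hac⟩
  ext x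
  by_cases hxa : x = a
  · subst hxa; rw [cyc_apply_fst hab hac]
  by_cases hxb : x = σ a
  · subst hxb; rw [cyc_apply_snd hbc hac]
  by_cases hxc : x = σ (σ a)
  · subst hxc; rw [cyc_apply_trd, h3a]
  rw [cyc_apply_of_ne hxa hxb hxc]
  have : x ∉ σ.support := by
    rw [hsupp]; simp only [Finset.mem_insert, Finset.mem_singleton, not_or]; exact ⟨hxa, hxb, hxc⟩
  exact notMem_support.mp this

/-- all 3-cycles on `O` lie in `H`. -/
def Q (H : Subgroup (Perm α)) (O : Finset α) : Prop :=
  ∀ a ∈ O, ∀ b ∈ O, ∀ c ∈ O, a ≠ b → b ≠ c → a ≠ c → cyc a b c ∈ H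

variable {H : Subgroup (Perm α)}

theorem Q_insert {O : Finset α} (hQ : Q H O) {x u v : α} (hx : x ∉ O) (hu : u ∈ O) (hv : v ∈ O)
    (huv : u ≠ v) (h : cyc x u v ∈ H) : Q H (insert x O) := by
  have hne : ∀ w ∈ O, x ≠ w := fun w hw e => hx (e ▸ hw)
  -- R1
  have R1 : ∀ u ∈ O, ∀ v ∈ O, u ≠ v → cyc x u v ∈ H → cyc x v u ∈ H := by
    intro u hu v hv huv h
    have := H.inv_mem h
    rw [cyc_inv, cyc_rot huv.symm (hne u hu).symm (hne v hv).symm,
      cyc_rot (hne u hu).symm (hne v hv) huv] at this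
    exact this
  have R2 : ∀ u ∈ O, ∀ v ∈ O, ∀ w ∈ O, u ≠ v → w ≠ u → w ≠ v → cyc x u v ∈ H → cyc x v w ∈ H := by
    intro u hu v hv w hw huv hwu hwv h
    have hg : cyc u v w ∈ H := hQ u hu v hv w hw huv hwv.symm hwu.symm
    have := H.mul_mem (H.mul_mem hg h) (H.inv_mem hg)
    rw [conj_cyc, cyc_apply_of_ne (hne u hu) (hne v hv) (hne w hw), cyc_apply_fst huv hwu.symm,
      cyc_apply_snd hwv.symm hwu.symm] at this
    exact this
  have star : ∀ u ∈ O, ∀ v ∈ O, u ≠ v → cyc x u v ∈ H → ∀ w ∈ O, w ≠ v → cyc x v w ∈ H := by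
    intro u hu v hv huv h w hw hwv
    by_cases hwu : w = u
    · subst hwu; exact R1 _ hu _ hv huv h
    · exact R2 u hu v hv w hw huv hwu hwv h
  have all : ∀ p ∈ O, ∀ q ∈ O, p ≠ q → cyc x p q ∈ H := by
    intro p hp q hq hpq
    by_cases hpv : p = v
    · subst hpv; exact star u hu _ hv huv h q hq hpq.symm
    · have h1 := star u hu v hv huv h p hp hpv
      exact star v hv p hp (Ne.symm hpv) h1 q hq hpq.symm
  intro a ha b hb c hc hab hbc hac
  rw [Finset.mem_insert] at ha hb hc
  rcases ha with rfl | ha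
  · have hb' : b ∈ O := hb.resolve_left hab.symm
    have hc' : c ∈ O := hc.resolve_left hac.symm
    exact all b hb' c hc' hbc
  rcases hb with rfl | hb
  · have hc' : c ∈ O := hc.resolve_left hbc.symm
    rw [cyc_rot hab hbc hac]
    exact all c hc' a ha hac.symm
  rcases hc with rfl | hc
  · rw [cyc_rot hab hbc hac, cyc_rot hbc hac.symm hab.symm]
    exact all a ha b hb hab
  exact hQ a ha b hb c hc hab hbc hac

theorem Q_pair (b c : α) : Q H {b, c} := by
  intro p hp q hq r hr hpq hqr hpr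
  simp only [Finset.mem_insert, Finset.mem_singleton] at hp hq hr
  rcases hp with rfl | rfl <;> rcases hq with rfl | rfl <;> rcases hr with rfl | rfl <;>
    simp_all

theorem Q_triple {a b c : α} (hab : a ≠ b) (hbc : b ≠ c) (hac : a ≠ c) (h : cyc a b c ∈ H) :
    Q H {a, b, c} :=
  Q_insert (Q_pair b c) (by simp [hab, hac]) (by simp) (by simp) hbc h

/-- a 3-cycle of `H` meeting `O` but not inside `O` enlarges `O`. -/
theorem exists_Q_insert {O : Finset α} (hQ : Q H O) (h3 : 3 ≤ O.card) {a x y : α}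
    (hax : a ≠ x) (hxy : x ≠ y) (hay : a ≠ y) (h : cyc a x y ∈ H) (ha : a ∈ O) (hx : x ∉ O) :
    Q H (insert x O) := by
  by_cases hy : y ∈ O
  · rw [cyc_rot hax hxy hay] at h
    exact Q_insert hQ hx hy ha hay.symm h
  · obtain ⟨b, hb, hba⟩ : ∃ b ∈ O, b ≠ a := by
      by_contra hcon
      push Not at hcon
      have : O ⊆ {a} := fun z hz => by simpa using hcon z hz
      have := Finset.card_le_card this
      simp at this; omega
    obtain ⟨b', hb', hb'a, hb'b⟩ : ∃ b' ∈ O, b' ≠ a ∧ b' ≠ b := by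
      by_contra hcon
      push Not at hcon
      have : O ⊆ {a, b} := fun z hz => by
        by_cases hza : z = a
        · simp [hza]
        · simp [hcon z hz hza]
      have := Finset.card_le_card this
      have h2 : ({a, b} : Finset α).card ≤ 2 := Finset.card_le_two
      omega
    have hd : cyc a b b' ∈ H := hQ a ha b hb b' hb' hba.symm hb'b.symm hb'a.symm
    have := H.mul_mem (H.mul_mem h hd) (H.inv_mem h)
    have hbx : b ≠ x := fun e => hx (e ▸ hb)
    have hby : b ≠ y := fun e => hy (e ▸ hb)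
    have hb'x : b' ≠ x := fun e => hx (e ▸ hb')
    have hb'y : b' ≠ y := fun e => hy (e ▸ hb')
    rw [conj_cyc, cyc_apply_fst hax hay, cyc_apply_of_ne hba hbx hby,
      cyc_apply_of_ne hb'a hb'x hb'y] at this
    exact Q_insert hQ hx hb hb' hb'b.symm this

/-- `O` is a largest set (with at least three points) all of whose 3-cycles lie in `H`. -/
structure IsMax (H : Subgroup (Perm α)) (O : Finset α) : Prop where
  q : Q H O
  three : 3 ≤ O.card
  max : ∀ O' : Finset α, Q H O' → O'.card ≤ O.card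

theorem exists_isMax [Fintype α] {a b c : α} (hab : a ≠ b) (hbc : b ≠ c) (hac : a ≠ c)
    (h : cyc a b c ∈ H) : ∃ O : Finset α, IsMax H O := by
  classical
  have hne : (Finset.univ.filter (fun O : Finset α => Q H O)).Nonempty :=
    ⟨{a, b, c}, by simp [Q_triple hab hbc hac h]⟩
  obtain ⟨O, hO, hmax⟩ := Finset.exists_max_image _ Finset.card hne
  simp only [Finset.mem_filter, Finset.mem_univ, true_and] at hO hmax
  refine ⟨O, hO, ?_, hmax⟩
  have := hmax _ (Q_triple hab hbc hac h)
  rw [Finset.card_insert_of_notMem (by simp [hab, hac]), Finset.card_insert_of_notMem (by simp [hbc]),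
    Finset.card_singleton] at this
  exact this

theorem IsMax.mem_of_mem {O : Finset α} (hO : IsMax H O) {a x y : α}
    (hax : a ≠ x) (hxy : x ≠ y) (hay : a ≠ y) (h : cyc a x y ∈ H) (ha : a ∈ O) : x ∈ O := by
  by_contra hx
  have := hO.max _ (exists_Q_insert hO.q hO.three hax hxy hay h ha hx)
  rw [Finset.card_insert_of_notMem hx] at this
  omega

theorem IsMax.mem_iff {O : Finset α} (hO : IsMax H O) {p q r : α}
    (hpq : p ≠ q) (hqr : q ≠ r) (hpr : p ≠ r) (h : cyc p q r ∈ H) :
    (p ∈ O ↔ q ∈ O) ∧ (p ∈ O ↔ r ∈ O) := by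
  have h1 : p ∈ O → q ∈ O := hO.mem_of_mem hpq hqr hpr h
  have h2 : q ∈ O → r ∈ O := hO.mem_of_mem hqr hpr.symm hpq.symm (cyc_rot hpq hqr hpr ▸ h)
  have h3 : r ∈ O → p ∈ O := hO.mem_of_mem hpr.symm hpq hqr.symm
    (cyc_rot hqr hpr.symm hpq.symm ▸ cyc_rot hpq hqr hpr ▸ h)
  exact ⟨⟨h1, fun h => h3 (h2 h)⟩, ⟨fun h => h2 (h1 h), h3⟩⟩

theorem exists_third {O : Finset α} (h3 : 3 ≤ O.card) (u v : α) : ∃ w ∈ O, w ≠ u ∧ w ≠ v := by
  by_contra hcon
  push Not at hcon
  have : O ⊆ {u, v} := fun z hz => by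
    by_cases hza : z = u
    · simp [hza]
    · simp [hcon z hz hza]
  have := Finset.card_le_card this
  have h2 : ({u, v} : Finset α).card ≤ 2 := Finset.card_le_two
  omega

theorem IsMax.dichotomy {O : Finset α} (hO : IsMax H O) {g : Perm α} (hg : g ∈ H) :
    (∀ u ∈ O, g u ∈ O) ∨ (∀ u ∈ O, g u ∉ O) := by
  by_contra hcon
  push Not at hcon
  obtain ⟨⟨v, hv, hgv⟩, ⟨u, hu, hgu⟩⟩ := hcon
  have huv : u ≠ v := fun e => hgv (e ▸ hgu)
  obtain ⟨w, hw, hwu, hwv⟩ := exists_third hO.three u v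
  have h1 : cyc u v w ∈ H := hO.q u hu v hv w hw huv hwv.symm hwu.symm
  have h2 := H.mul_mem (H.mul_mem hg h1) (H.inv_mem hg)
  rw [conj_cyc] at h2
  have := (hO.mem_iff (g.injective.ne huv) (g.injective.ne hwv.symm) (g.injective.ne hwu.symm) h2).1
  exact hgv (this.mp hgu)

/-- the set of 3-cycles on `O`. -/
def T (O : Finset α) : Set (Perm α) :=
  {σ | ∃ a ∈ O, ∃ b ∈ O, ∃ c ∈ O, a ≠ b ∧ b ≠ c ∧ a ≠ c ∧ σ = cyc a b c}

/-- the alternating group on `O`, as a subgroup of `Perm α`. -/
def A (O : Finset α) : Subgroup (Perm α) := closure (T O)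

theorem cyc_mem_A {O : Finset α} {a b c : α} (ha : a ∈ O) (hb : b ∈ O) (hc : c ∈ O) (hab : a ≠ b)
    (hbc : b ≠ c) (hac : a ≠ c) : cyc a b c ∈ A O :=
  subset_closure ⟨a, ha, b, hb, c, hc, hab, hbc, hac, rfl⟩

theorem A_le {O : Finset α} (hQ : Q H O) : A O ≤ H := by
  rw [A, closure_le]
  rintro _ ⟨a, ha, b, hb, c, hc, hab, hbc, hac, rfl⟩
  exact hQ a ha b hb c hc hab hbc hac

theorem A_fix {O : Finset α} {σ : Perm α} (h : σ ∈ A O) {x : α} (hx : x ∉ O) : σ x = x := by
  have : A O ≤ MulAction.stabilizer (Perm α) x := by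
    rw [A, closure_le]
    rintro _ ⟨a, ha, b, hb, c, hc, hab, hbc, hac, rfl⟩
    show cyc a b c x = x
    exact cyc_apply_of_ne (fun e => hx (e ▸ ha)) (fun e => hx (e ▸ hb)) (fun e => hx (e ▸ hc))
  exact this h

theorem conj_mem_A {O : Finset α} {σ : Perm α} (h : σ ∈ A O) (g : Perm α) :
    g * σ * g⁻¹ ∈ A (O.image g) := by
  have : A O ≤ (A (O.image g)).comap (MulAut.conj g).toMonoidHom := by
    rw [A, closure_le]
    rintro _ ⟨a, ha, b, hb, c, hc, hab, hbc, hac, rfl⟩
    show g * cyc a b c * g⁻¹ ∈ A (O.image g)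
    rw [conj_cyc]
    exact cyc_mem_A (Finset.mem_image_of_mem g ha) (Finset.mem_image_of_mem g hb)
      (Finset.mem_image_of_mem g hc) (g.injective.ne hab) (g.injective.ne hbc) (g.injective.ne hac)
  exact this h

theorem commute_of_fix {O O' : Finset α} {σ τ : Perm α} (hσ : ∀ x ∉ O, σ x = x)
    (hτ : ∀ x ∉ O', τ x = x) (hd : ∀ x ∈ O, x ∉ O') : Commute σ τ := by
  apply Perm.Disjoint.commute
  intro x
  by_cases hx : x ∈ O
  · exact Or.inr (hτ x (hd x hx))
  · exact Or.inl (hσ x hx)

theorem A_eq_map [Fintype α] (O : Finset α) :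
    A O = (alternatingGroup O).map (Perm.ofSubtype : Perm O →* Perm α) := by
  rw [← closure_three_cycles_eq_alternating, MonoidHom.map_closure, A]
  congr 1
  ext σ
  constructor
  · rintro ⟨a, ha, b, hb, c, hc, hab, hbc, hac, rfl⟩
    refine ⟨cyc ⟨a, ha⟩ ⟨b, hb⟩ ⟨c, hc⟩, isThreeCycle_cyc (by simpa using hab) (by simpa using hbc)
      (by simpa using hac), ?_⟩
    simp [cyc, ofSubtype_swap_eq]
  · rintro ⟨τ, hτ, rfl⟩
    obtain ⟨a, b, c, hab, hbc, hac, rfl⟩ := exists_cyc_of_isThreeCycle hτ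
    refine ⟨a, a.2, b, b.2, c, c.2, fun e => hab (Subtype.ext e), fun e => hbc (Subtype.ext e),
      fun e => hac (Subtype.ext e), ?_⟩
    simp [cyc, ofSubtype_swap_eq]

/-- `A O` is an alternating group of degree `#O`. -/
noncomputable def AEquiv [Fintype α] (O : Finset α) : ↥(A O) ≃* ↥(alternatingGroup (Fin O.card)) :=
  (MulEquiv.subgroupCongr (A_eq_map O)).trans
    (((alternatingGroup O).equivMapOfInjective _ Perm.ofSubtype_injective).symm.trans
      (Equiv.altCongrHom (Fintype.equivFinOfCardEq (by simp))))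

theorem IsMax.conj_mem_normalizer {O : Finset α} (hO : IsMax H O) {g a : Perm α} (hg : g ∈ H)
    (ha : a ∈ A O) : g * a * g⁻¹ ∈ A O ∨ ∀ σ ∈ A O, Commute (g * a * g⁻¹) σ := by
  rcases hO.dichotomy hg with h | h
  · left
    have himg : O.image g = O := by
      apply Finset.eq_of_subset_of_card_le
      · intro x hx
        obtain ⟨u, hu, rfl⟩ := Finset.mem_image.mp hx
        exact h u hu
      · rw [Finset.card_image_of_injective _ g.injective]
    have := conj_mem_A ha g
    rwa [himg] at this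
  · right
    intro σ hσ
    refine commute_of_fix (O := O.image g) (O' := O) (fun x hx => A_fix (conj_mem_A ha g) hx)
      (fun x hx => A_fix hσ hx) ?_
    intro x hx
    obtain ⟨u, hu, rfl⟩ := Finset.mem_image.mp hx
    exact h u hu

theorem IsMax.isSubnormal {O : Finset α} (hO : IsMax H O) : ((A O).subgroupOf H).IsSubnormal := by
  set A' := (A O).subgroupOf H with hA'
  have hle : A' ≤ normalClosure (A' : Set H) := le_normalClosure
  refine IsSubnormal.step A' _ hle (normalClosure_normal.isSubnormal) ?_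
  rw [normal_subgroupOf_iff_le_normalizer hle, normalClosure, closure_le]
  intro x hx
  rw [Group.mem_conjugatesOfSet_iff] at hx
  obtain ⟨a, ha, hax⟩ := hx
  rw [isConj_iff] at hax
  obtain ⟨g, rfl⟩ := hax
  have ha' : (a : Perm α) ∈ A O := ha
  rcases hO.conj_mem_normalizer g.2 ha' with h | h
  · apply le_normalizer
    exact h
  · show g * a * g⁻¹ ∈ normalizer (A' : Set H)
    rw [mem_normalizer_iff]
    intro y
    constructor
    · intro hy
      have hc : Commute (g * a * g⁻¹) y := by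
        have := h y hy
        exact Subtype.ext this
      rw [hc.eq, mul_inv_cancel_right]
      exact hy
    · intro hy
      have hc : Commute (g * a * g⁻¹) (g * a * g⁻¹ * y * (g * a * g⁻¹)⁻¹) := by
        have := h _ hy
        exact Subtype.ext this
      have h2 : g * a * g⁻¹ * y * (g * a * g⁻¹)⁻¹ = y := by
        have h3 := hc.eq
        have h4 : g * a * g⁻¹ * (g * a * g⁻¹ * y * (g * a * g⁻¹)⁻¹) = g * a * g⁻¹ * y := by
          rw [h3]; group
        exact mul_left_cancel h4
      rw [h2] at hy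
      exact hy

/-- two permutations commuting with a 3-cycle commute on its support. -/
theorem apply_comm_of_commute {a b c : α} (hab : a ≠ b) (hbc : b ≠ c) (hac : a ≠ c) {g h : Perm α}
    (hg : Commute g (cyc a b c)) (hh : Commute h (cyc a b c)) : g (h a) = h (g a) := by
  set σ := cyc a b c with hσ
  have key : ∀ f : Perm α, Commute f σ → ∃ i : ℕ, f a = (σ ^ i) a := by
    intro f hf
    have h1 : σ (f a) = f b := by
      have := congrArg (fun t : Perm α => t a) hf.eq
      simp only [Perm.mul_apply] at this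
      rw [← this, hσ, cyc_apply_fst hab hac]
    by_cases h2 : f a = a
    · exact ⟨0, by simpa using h2⟩
    by_cases h3 : f a = b
    · exact ⟨1, by rw [pow_one, hσ, cyc_apply_fst hab hac]; exact h3⟩
    by_cases h4 : f a = c
    · exact ⟨2, by rw [pow_two, Perm.mul_apply, hσ, cyc_apply_fst hab hac, cyc_apply_snd hbc hac]; exact h4⟩
    exfalso
    rw [hσ, cyc_apply_of_ne h2 h3 h4] at h1
    exact hab (f.injective h1)
  obtain ⟨i, hi⟩ := key g hg
  obtain ⟨j, hj⟩ := key h hh
  have e1 : g ((σ ^ j) a) = (σ ^ j) (g a) := by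
    have := congrArg (fun t : Perm α => t a) (hg.pow_right j).eq
    simpa [Perm.mul_apply] using this
  have e2 : h ((σ ^ i) a) = (σ ^ i) (h a) := by
    have := congrArg (fun t : Perm α => t a) (hh.pow_right i).eq
    simpa [Perm.mul_apply] using this
  rw [hj, e1, hi, e2, hj, ← Perm.mul_apply, ← Perm.mul_apply, ← pow_add, ← pow_add, add_comm]

end Cfsg.Agent.Lib.Helper95.ThreeCyc
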